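import Cfsg.Agent.Lib.Ly.Pk

/-!
Packed `24 × 24` matrices over the field with two elements: entry `(i, j)` is bit `24 j + i`.
-/

set_option autoImplicit false

namespace Cfsg.Agent.TE

open Finset Cfsg.Agent.Pk Matrix

/-- Evaluation of the argument before the call. -/
noncomputable def frc {β : Type} (n : ℕ) (f : ℕ → β) : β :=
  Nat.rec (f 0) (fun m _ => f (Nat.succ m)) n

@[simp] theorem frc_eq {β : Type} (n : ℕ) (f : ℕ → β) : frc n f = f n := by cases n <;> rfl

/-- One term of the product. -/
def tm (M X Y k l : ℕ) : ℕ :=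
  Nat.mul (Nat.land (Nat.shiftRight Y k) M) (Nat.land (Nat.shiftRight X l) 16777215)

/-- The matrix `X` applied to the columns of `Y` selected by the mask `M`. -/
def mw0 (M X Y : ℕ) : ℕ :=
  (Nat.xor (Nat.xor (Nat.xor (Nat.xor (Nat.xor (Nat.xor (Nat.xor (Nat.xor (Nat.xor (Nat.xor (Nat.xor (Nat.xor (Nat.xor (Nat.xor (Nat.xor (Nat.xor (Nat.xor (Nat.xor (Nat.xor (Nat.xor (Nat.xor (Nat.xor (Nat.xor (Nat.xor 0 (tm M X Y 0 0)) (tm M X Y 1 24)) (tm M X Y 2 48)) (tm M X Y 3 72)) (tm M X Y 4 96)) (tm M X Y 5 120)) (tm M X Y 6 144)) (tm M X Y 7 168)) (tm M X Y 8 192)) (tm M X Y 9 216)) (tm M X Y 10 240)) (tm M X Y 11 264)) (tm M X Y 12 288)) (tm M X Y 13 312)) (tm M X Y 14 336)) (tm M X Y 15 360)) (tm M X Y 16 384)) (tm M X Y 17 408)) (tm M X Y 18 432)) (tm M X Y 19 456)) (tm M X Y 20 480)) (tm M X Y 21 504)) (tm M X Y 22 528)) (tm M X Y 23 552))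

/-- The same, evaluating the arguments first. -/
noncomputable def mw (M X Y : ℕ) : ℕ := frc X fun X => frc Y fun Y => mw0 M X Y

/-- Partial sums. -/
def acc (M X Y : ℕ) : ℕ → ℕ
  | 0 => 0
  | k + 1 => acc M X Y k ^^^ tm M X Y k (24 * k)

theorem mw_eq (M X Y : ℕ) : mw M X Y = acc M X Y 24 := by
  rw [mw, frc_eq, frc_eq]; rfl

/-- A bit. -/
def bt (x p : ℕ) : ZMod 2 := if x.testBit p then 1 else 0

theorem bt_xor (m n i : ℕ) : bt (m ^^^ n) i = bt m i + bt n i := by
  simp only [bt, Nat.testBit_xor]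
  cases m.testBit i <;> cases n.testBit i <;> decide

theorem bt_inj {m n i j : ℕ} (h : bt m i = bt n j) : m.testBit i = n.testBit j := by
  revert h
  simp only [bt]
  cases m.testBit i <;> cases n.testBit j <;> decide

theorem tm_eq (n X Y k : ℕ) : tm (ones 24 n) X Y k (24 * k) =
    E 24 n fun j => (Y.testBit (24 * j + k)).toNat * lane 24 X k := by
  have h1 : ones 24 n = E 24 n fun _ => 1 := by rw [← mul_ones (by decide), one_mul]
  have h2 : (Y >>> k) &&& ones 24 n = E 24 n fun j => (Y.testBit (24 * j + k)).toNat := by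
    refine eq_E (by decide) (fun t ht => ?_) fun t ht => ?_
    · rw [lane_and, h1, lane_eq_zero (N := n) (x := E _ _ _) (E_lt fun _ _ => by norm_num) ht,
        Nat.and_zero]
    · rw [lane_and, h1, lane_E (fun _ _ => by norm_num) ht, Nat.and_one_is_mod]
      have := testBit_lane 24 (Y >>> k) t 0
      rw [Nat.testBit_shiftRight, add_zero, add_comm k] at this
      simp only [show (0 : ℕ) < 24 by decide, decide_true, Bool.true_and] at this
      rw [← this, Nat.testBit_zero]
      rcases Nat.mod_two_eq_zero_or_one (lane 24 (Y >>> k) t) with h | h <;> simp [h]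
  have h3 : (X >>> (24 * k)) &&& 16777215 = lane 24 X k := by
    rw [lane, Nat.shiftRight_eq_div_pow, show 16777215 = 2 ^ 24 - 1 by norm_num,
      Nat.and_two_pow_sub_one_eq_mod]
  change ((Y >>> k) &&& ones 24 n) * ((X >>> (24 * k)) &&& 16777215) = _
  rw [h2, h3, E_mul]

theorem tm_small (X Y k j : ℕ) : (Y.testBit j).toNat * lane 24 X k < 2 ^ 24 := by
  have := lane_lt 24 X k
  cases Y.testBit j <;> simp <;> omega

theorem acc_lt (n X Y m : ℕ) : acc (ones 24 n) X Y m < 2 ^ (24 * n) := by
  induction m with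
  | zero => exact Nat.two_pow_pos _
  | succ m ih =>
    refine Nat.xor_lt_two_pow ih ?_
    rw [tm_eq]
    exact E_lt fun t _ => tm_small _ _ _ _

theorem bt_acc {n j i : ℕ} (hj : j < n) (hi : i < 24) (X Y m : ℕ) :
    bt (acc (ones 24 n) X Y m) (24 * j + i) =
      ∑ k ∈ range m, bt X (24 * k + i) * bt Y (24 * j + k) := by
  induction m with
  | zero => simp [acc, bt]
  | succ m ih =>
    rw [acc, bt_xor, ih, sum_range_succ, tm_eq]
    congr 1
    have h1 := testBit_lane 24 (E 24 n fun j => (Y.testBit (24 * j + m)).toNat * lane 24 X m) j i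
    rw [lane_E (fun t _ => tm_small _ _ _ _) hj] at h1
    have h2 := testBit_lane 24 X m i
    simp only [hi, decide_true, Bool.true_and] at h1 h2
    simp only [bt, ← h1, ← h2]
    cases Y.testBit (24 * j + m) <;> simp

/-- The matrices. -/
abbrev Mt := Matrix (Fin 24) (Fin 24) (ZMod 2)

/-- The vectors. -/
abbrev Vt := Fin 24 → ZMod 2

/-- The matrix with a given code. -/
def toM (x : ℕ) : Mt := of fun i j => bt x (24 * j + i)

/-- Column `j`. -/
def col (x j : ℕ) : Vt := fun i => bt x (24 * j + i)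

theorem col_mw {n j : ℕ} (hj : j < n) (X Y : ℕ) :
    col (mw (ones 24 n) X Y) j = toM X *ᵥ col Y j := by
  funext i
  rw [col, mw_eq, bt_acc hj i.2, mulVec, dotProduct, Finset.sum_range]
  rfl

theorem mw_lt (n X Y : ℕ) : mw (ones 24 n) X Y < 2 ^ (24 * n) := mw_eq _ _ _ ▸ acc_lt _ _ _ _

theorem col_lane (x j : ℕ) : col (lane 24 x j) 0 = col x j := by
  funext i
  simp [col, bt, testBit_lane]

theorem col_inj {x y : ℕ} (hx : x < 2 ^ 24) (hy : y < 2 ^ 24) (h : col x 0 = col y 0) : x = y := by
  refine Nat.eq_of_testBit_eq fun i => ?_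
  by_cases hi : i < 24
  · have := bt_inj (congrFun h ⟨i, hi⟩)
    simpa using this
  · have : 2 ^ 24 ≤ 2 ^ i := Nat.pow_le_pow_right (by decide) (by omega)
    rw [Nat.testBit_lt_two_pow (hx.trans_le this), Nat.testBit_lt_two_pow (hy.trans_le this)]

/-- The mask for square matrices. -/
def m24 : ℕ := 0x1000001000001000001000001000001000001000001000001000001000001000001000001000001000001000001000001000001000001000001000001000001000001000001

/-- The identity matrix. -/
def one : ℕ := 0x800000400000200000100000080000040000020000010000008000004000002000001000000800000400000200000100000080000040000020000010000008000004000002000001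

/-- The bound for codes. -/
def bd : ℕ := 0x1000000000000000000000000000000000000000000000000000000000000000000000000000000000000000000000000000000000000000000000000000000000000000000000000

theorem m24_eq : m24 = ones 24 24 := by decide +kernel

theorem bd_eq : bd = 2 ^ 576 := by decide +kernel

/-- The product. -/
noncomputable def mul (X Y : ℕ) : ℕ := mw m24 X Y

/-- A matrix applied to a vector. -/
noncomputable def ap (X v : ℕ) : ℕ := mw 1 X v

/-- Validity of a code. -/
def val (x : ℕ) : Bool := Nat.blt x bd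

theorem val_iff {x : ℕ} : val x = true ↔ x < 2 ^ 576 := by rw [val, Nat.blt_eq, bd_eq]

theorem mul_lt (X Y : ℕ) : mul X Y < 2 ^ 576 := by rw [mul, m24_eq]; exact mw_lt 24 X Y

theorem toM_mul (X Y : ℕ) : toM (mul X Y) = toM X * toM Y := by
  ext i j
  have := congrFun (col_mw j.2 X Y) i
  rw [← m24_eq] at this
  exact this

theorem toM_inj {x y : ℕ} (hx : x < 2 ^ 576) (hy : y < 2 ^ 576) (h : toM x = toM y) : x = y := by
  refine Nat.eq_of_testBit_eq fun i => ?_
  by_cases hi : i < 576
  · have := bt_inj (congrFun (congrFun h ⟨i % 24, Nat.mod_lt _ (by decide)⟩) ⟨i / 24, by omega⟩)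
    simpa [Nat.div_add_mod] using this
  · have : 2 ^ 576 ≤ 2 ^ i := Nat.pow_le_pow_right (by decide) (by omega)
    rw [Nat.testBit_lt_two_pow (hx.trans_le this), Nat.testBit_lt_two_pow (hy.trans_le this)]

theorem toM_one : toM one = 1 := by decide +kernel

theorem one_lt : one < 2 ^ 576 := by decide +kernel

theorem ones_one : ones 24 1 = 1 := by decide +kernel

theorem ap_lt (X v : ℕ) : ap X v < 2 ^ 24 := by
  have := mw_lt 1 X v
  rwa [ones_one] at this

theorem col_ap (X v : ℕ) : col (ap X v) 0 = toM X *ᵥ col v 0 := by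
  have := col_mw (n := 1) (j := 0) (by decide) X v
  rwa [ones_one] at this

end Cfsg.Agent.TE
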