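import Cfsg.Agent.Lib.Th.Bit

/-!
A checker for certified double coset enumerations over a subgroup `L` with a faithful matrix
model. A fact is one number with the fields `cls, fi, fj, fm, fn, fl`.
-/

set_option autoImplicit false
set_option exponentiation.threshold 2000

namespace Cfsg.Agent.TE

noncomputable def band (a b : Bool) : Bool := a.rec false b

theorem band_true {a b : Bool} (h : band a b = true) : a = true ∧ b = true := by
  cases a
  · simp [band] at h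
  · exact ⟨rfl, h⟩

noncomputable def cnd {β : Type} (a : Bool) (x y : β) : β := a.rec y x

theorem beq_eq {a b : ℕ} (h : Nat.beq a b = true) : a = b := Nat.eq_of_beq_eq_true h

theorem blt_lt {a b : ℕ} (h : Nat.blt a b = true) : a < b := by simpa [Nat.blt_eq] using h

noncomputable def nth {α : Type} (d : α) (l : List α) : ℕ → α :=
  List.rec (fun _ => d) (fun a _ r n => Nat.rec a (fun m _ => r m) n) l

theorem nth_mem {α : Type} {d : α} {l : List α} {r : ℕ} : nth d l r = d ∨ nth d l r ∈ l := by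
  induction l generalizing r with
  | nil => exact .inl rfl
  | cons a l ih =>
    cases r with
    | zero => exact .inr List.mem_cons_self
    | succ r => exact ih.imp id (List.mem_cons_of_mem _)

def cls (r : ℕ) : ℕ := Nat.land r 3
def fi (r : ℕ) : ℕ := Nat.land (Nat.shiftRight r 2) 65535
def fj (r : ℕ) : ℕ := Nat.land (Nat.shiftRight r 18) 65535
def fm (r : ℕ) : ℕ := Nat.mod (Nat.shiftRight r 34) bd
def fn (r : ℕ) : ℕ := Nat.mod (Nat.shiftRight r 610) bd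
def fl (r : ℕ) : ℕ := Nat.shiftRight r 1186
def hd (p : ℕ) : ℕ := Nat.land p 65535
def tl (p : ℕ) : ℕ := Nat.shiftRight p 16

theorem fm_lt (r : ℕ) : fm r < 2 ^ 576 := by
  rw [← bd_eq]; exact Nat.mod_lt _ (by rw [bd_eq]; positivity)

theorem fn_lt (r : ℕ) : fn r < 2 ^ 576 := by
  rw [← bd_eq]; exact Nat.mod_lt _ (by rw [bd_eq]; positivity)

/-- Product of left factors; `0` stands for an unknown one. -/
noncomputable def lm (x y : ℕ) : ℕ := cnd (Nat.beq x 0) 0 (cnd (Nat.beq y 0) 0 (mul x y))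

/-- `a * b = c` for left factors, when `b` is known. -/
noncomputable def ld (a b c : ℕ) : Bool := cnd (Nat.beq b 0) true
  (cnd (Nat.beq a 0) false (cnd (Nat.beq c 0) false (band (val b) (Nat.beq (mul a b) c))))

section
variable (F : ℕ → ℕ) (t : ℕ)

/-- An earlier fact of a given class. -/
noncomputable def use (f c : ℕ) (k : ℕ → Bool) : Bool :=
  frc f fun f => band (Nat.blt f t) (frc (F f) fun r => band (Nat.beq (cls r) c) (k r))

/-- A sequence of moves. -/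
noncomputable def runA (k : ℕ → ℕ → ℕ → ℕ → Bool) (c : ℕ) : ℕ → ℕ → ℕ → ℕ → Bool :=
  Nat.rec k (fun _ ih pf l j p => use F t (hd pf) 2 fun r => band (Nat.beq (fi r) j)
    (frc (tl pf) fun pf => frc (lm l (fl r)) fun l => frc (fj r) fun j =>
      frc (mul (fm r) p) fun p => ih pf l j p)) c

noncomputable def rdA (k : ℕ → ℕ → ℕ → ℕ → Bool) (pf l j p : ℕ) : Bool :=
  runA F t k (hd pf) (tl pf) l j p

/-- Shift of an entry by a pair commuting with `z`. -/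
noncomputable def kk (a m n : ℕ) (k : ℕ → ℕ → Bool) : Bool :=
  cnd (Nat.beq a 0) (k m n) (use F t a 1 fun r =>
    frc (mul m (fm r)) fun m => frc (mul n (fn r)) fun n => k m n)

/-- An entry. -/
noncomputable def ent (pf : ℕ) (k : ℕ → ℕ → ℕ → ℕ → ℕ → ℕ → Bool) : Bool :=
  use F t (hd pf) 3 fun r => frc (tl pf) fun pf => kk F t (hd pf) (fm r) (fn r) fun m n =>
    frc (tl pf) fun pf => kk F t (hd pf) m n fun m n =>
      frc (tl pf) fun pf => k pf (fi r) m (fl r) (fj r) n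

/-- Multiplication by `z`. -/
noncomputable def zs (k : ℕ → ℕ → ℕ → ℕ → Bool) : ℕ → ℕ → ℕ → ℕ → Bool :=
  rdA F t fun pf l j p => cnd (Nat.beq j 0) (frc (lm l p) fun l => k pf l 1 one)
    (ent F t pf fun pf i m l' j' n => band (Nat.beq i j) (band (Nat.beq m p)
      (frc (lm l l') fun l => frc j' fun j' => k pf l j' n)))

/-- Multiplication by `z * q₁ * z * q₂ * ⋯`. -/
noncomputable def run (k : ℕ → ℕ → ℕ → ℕ → Bool) (qs : List ℕ) : ℕ → ℕ → ℕ → ℕ → Bool :=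
  List.rec k (fun q _ ih => zs F t fun pf l j p => frc (mul p q) fun p => ih pf l j p) qs

/-- A product of certified elements. -/
noncomputable def wrd (k : ℕ → Bool) (c : ℕ) : ℕ → ℕ → Bool :=
  Nat.rec (fun _ x => k x) (fun _ ih pf x => band (Nat.blt (hd pf) t)
    (frc (tl pf) fun pf' => frc (mul x (fm (F (hd pf)))) fun x => ih pf' x)) c

/-- The move obtained from two expressions for one element. -/
noncomputable def fin (r l₁ i n₁ l₂ j n₂ : ℕ) : Bool :=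
  band (Nat.beq (cls r) 2) (band (Nat.beq (fi r) i) (band (Nat.beq (fj r) j)
    (band (ld l₁ (fl r) l₂) (Nat.beq (mul (fm r) n₁) n₂))))

noncomputable def l0 (r : ℕ) : ℕ := cnd (Nat.beq (fl r) 0) 0 one

noncomputable def cT (R : List (List ℕ)) (r pf : ℕ) : Bool :=
  List.rec false (fun q₁ qs _ => List.rec false (fun q₂ qs _ =>
    ent F t (tl pf) fun pf i m l j n => band (Nat.beq (cls r) 3) (band (Nat.beq i (fj r))
      (band (Nat.beq (mul (fn r) q₁) m) (run F t (rdA F t fun _ l i p =>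
        band (Nat.beq i (fi r)) (band (Nat.beq p (fm r)) (ld l (fl r) one))) qs
          pf l j (mul n q₂))))) qs) (nth [] R (hd pf))

noncomputable def cS (r pf : ℕ) : Bool :=
  use F t (hd pf) 2 fun w => ent F t (tl pf) fun pf i m l j n =>
    band (Nat.beq (cls r) 3) (band (Nat.beq (fi w) i) (band (Nat.beq (fj w) (fi r))
      (band (Nat.beq (mul (fm w) m) (fm r)) (rdA F t (fun _ l j n =>
        band (Nat.beq j (fj r)) (band (Nat.beq n (fn r)) (ld (fl w) (fl r) l))) pf l j n))))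

noncomputable def cC (r pf : ℕ) : Bool :=
  use F t (hd pf) 3 fun e => zs F t (rdA F t fun pf l₂ j n₂ =>
    rdA F t (fun _ l₁ i n₁ => fin r l₁ i n₁ l₂ j n₂) pf (fl e) (fj e) (fn e))
      (tl pf) (l0 r) (fi e) (fm e)

noncomputable def cP (r pf : ℕ) : Bool :=
  rdA F t (fun pf' l₂ j n₂ => rdA F t (fun _ l₁ i n₁ => fin r l₁ i n₁ l₂ j n₂) pf' (l0 r) (hd pf)
    one) (tl pf) (l0 r) (hd pf) one

noncomputable def cD (r pf : ℕ) : Bool :=
  band (Nat.beq (cls r) 3) (band (Nat.blt (fi r) t) (band (Nat.beq (fj r) t)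
    (band (Nat.beq (fl r) (l0 r)) (band (Nat.beq (fn r) one)
      (wrd F t (fun x => Nat.beq x (fm r)) (hd pf) (tl pf) one)))))

noncomputable def cKP (r pf : ℕ) : Bool :=
  use F t (hd pf) 1 fun x => use F t (hd (tl pf)) 1 fun y => band (Nat.beq (cls r) 1)
    (band (Nat.beq (mul (fm x) (fm y)) (fm r)) (Nat.beq (mul (fn x) (fn y)) (fn r)))

noncomputable def cKM (r pf : ℕ) : Bool :=
  use F t (hd pf) 2 fun x => band (Nat.beq (cls r) 1) (band (Nat.beq (fi x) 1)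
    (band (Nat.beq (fj x) 1) (band (Nat.blt 0 (fl x))
      (band (Nat.beq (mul (fl x) (fm r)) one) (Nat.beq (fm x) (fn r))))))

noncomputable def cMK (r pf : ℕ) : Bool :=
  use F t (hd pf) 1 fun x => band (Nat.beq (cls r) 2) (band (Nat.beq (fi r) 1)
    (band (Nat.beq (fj r) 1) (band (ld (fm x) (fl r) one) (Nat.beq (fn x) (fm r)))))

noncomputable def cAR (AR : List ℕ) (r pf : ℕ) : Bool :=
  band (Nat.beq (cls r) 0) (Nat.beq (nth one AR pf) (fm r))

noncomputable def cAK (AK : List (ℕ × ℕ)) (r pf : ℕ) : Bool :=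
  band (Nat.beq (cls r) 1) (band (Nat.beq (nth (one, one) AK pf).1 (fm r))
    (Nat.beq (nth (one, one) AK pf).2 (fn r)))

end

/-- The given data of an enumeration. -/
structure Ax where
  AR : List ℕ
  AK : List (ℕ × ℕ)
  R : List (List ℕ)

/-- The check of fact number `t`. -/
noncomputable def chk (A : Ax) (F : ℕ → ℕ) (t pf : ℕ) : Bool :=
  frc (F t) fun r => frc (Nat.land pf 15) fun k => frc (Nat.shiftRight pf 4) fun pf =>
    cnd (Nat.beq k 3) (cT F t A.R r pf) <| cnd (Nat.beq k 6) (cP F t r pf) <|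
    cnd (Nat.beq k 4) (cS F t r pf) <| cnd (Nat.beq k 7) (cKP F t r pf) <|
    cnd (Nat.beq k 5) (cC F t r pf) <| cnd (Nat.beq k 2) (cD F t r pf) <|
    cnd (Nat.beq k 8) (cKM F t r pf) <| cnd (Nat.beq k 9) (cMK F t r pf) <|
    cnd (Nat.beq k 0) (cAR A.AR r pf) (cAK A.AK r pf)

noncomputable def chkL (A : Ax) (F : ℕ → ℕ) (l : List ℕ) : ℕ → Bool :=
  List.rec (fun _ => true) (fun d _ r t => band (chk A F t d) (frc (Nat.succ t) r)) l

/-! ### Meaning -/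

/-- The context of an enumeration. -/
structure Ctx (Γ G : Type) [Group Γ] [Group G] where
  L : Subgroup Γ
  π : Γ →* Mtˣ
  Φ : Γ →* G
  z : G
  uniq : ∀ g ∈ L, ∀ h ∈ L, π g = π h → Φ g = Φ h

variable {Γ G : Type} [Group Γ] [Group G]

/-- `x` is the code of `g`. -/
def Rep (L : Subgroup Γ) (π : Γ →* Mtˣ) (x : ℕ) (g : Γ) : Prop :=
  g ∈ L ∧ x < 2 ^ 576 ∧ toM x = (π g).1

section
variable {L : Subgroup Γ} {π : Γ →* Mtˣ}

theorem Rep.mul {a b : ℕ} {g h : Γ} (ha : Rep L π a g) (hb : Rep L π b h) :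
    Rep L π (mul a b) (g * h) :=
  ⟨mul_mem ha.1 hb.1, mul_lt _ _, by rw [toM_mul, ha.2.2, hb.2.2, map_mul, Units.val_mul]⟩

theorem rep_one : Rep L π one 1 := ⟨one_mem _, one_lt, by rw [toM_one, map_one, Units.val_one]⟩

theorem Rep.divl {x w y : ℕ} {g k : Γ} (hx : Rep L π x g) (hw : Rep L π w k) (hy : y < 2 ^ 576)
    (e : TE.mul x y = w) : Rep L π y (g⁻¹ * k) := by
  refine ⟨mul_mem (inv_mem hx.1) hw.1, hy, ?_⟩
  rw [map_mul, map_inv, Units.val_mul, ← hw.2.2, ← e, toM_mul, hx.2.2, ← mul_assoc, Units.inv_mul,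
    one_mul]

theorem Rep.divr {x w y : ℕ} {g k : Γ} (hx : Rep L π x g) (hw : Rep L π w k) (hy : y < 2 ^ 576)
    (e : TE.mul y x = w) : Rep L π y (k * g⁻¹) := by
  refine ⟨mul_mem hw.1 (inv_mem hx.1), hy, ?_⟩
  rw [map_mul, map_inv, Units.val_mul, ← hw.2.2, ← e, toM_mul, hx.2.2, mul_assoc, Units.mul_inv,
    mul_one]

theorem Rep.mono {L' : Subgroup Γ} (h : L ≤ L') {x : ℕ} {g : Γ} (hx : Rep L π x g) :
    Rep L' π x g := ⟨h hx.1, hx.2⟩

/-- Left factors. -/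
def RL (L : Subgroup Γ) (π : Γ →* Mtˣ) (x : ℕ) (g : Γ) : Prop := g ∈ L ∧ (x ≠ 0 → Rep L π x g)

theorem Rep.rl {x : ℕ} {g : Γ} (h : Rep L π x g) : RL L π x g := ⟨h.1, fun _ => h⟩

theorem ne_of_beq {a b : ℕ} (h : Nat.beq a b = false) : a ≠ b := Nat.ne_of_beq_eq_false h

theorem RL.lm {a b : ℕ} {g h : Γ} (ha : RL L π a g) (hb : RL L π b h) :
    RL L π (lm a b) (g * h) := by
  refine ⟨mul_mem ha.1 hb.1, ?_⟩
  unfold TE.lm
  cases e : Nat.beq a 0
  · cases e' : Nat.beq b 0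
    · exact fun _ => (ha.2 (ne_of_beq e)).mul (hb.2 (ne_of_beq e'))
    · exact fun h => absurd rfl h
  · exact fun h => absurd rfl h

theorem RL.ld {a b c : ℕ} {g k : Γ} (ha : RL L π a g) (hc : RL L π c k) (h : ld a b c = true) :
    RL L π b (g⁻¹ * k) := by
  refine ⟨mul_mem (inv_mem ha.1) hc.1, fun hb => ?_⟩
  unfold TE.ld at h
  cases e : Nat.beq b 0
  · cases e₁ : Nat.beq a 0
    · cases e₂ : Nat.beq c 0
      · rw [e, e₁, e₂] at h
        obtain ⟨h1, h2⟩ := band_true h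
        exact (ha.2 (ne_of_beq e₁)).divl (hc.2 (ne_of_beq e₂)) (val_iff.1 h1) (beq_eq h2)
      · rw [e, e₁, e₂] at h; cases h
    · rw [e, e₁] at h; cases h
  · exact absurd (beq_eq e) hb

theorem rl_l0 (r : ℕ) : RL L π (l0 r) 1 := by
  refine ⟨one_mem _, ?_⟩
  unfold l0
  cases Nat.beq (fl r) 0
  · exact fun _ => rep_one
  · exact fun h => absurd rfl h

end

variable (X : Ctx Γ G) (F : ℕ → ℕ)

namespace Ctx

open Classical in
/-- An element with a given code. -/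
noncomputable def elt (x : ℕ) : Γ := if h : ∃ g, Rep X.L X.π x g then h.choose else 1

/-- The representatives. -/
noncomputable def g (f : ℕ) : G :=
  if f = 0 then 1 else
    if _h : fi (F f) < f then g (fi (F f)) * X.Φ (X.elt (fm (F f))) * X.z else 1
termination_by f

def KP (m n : ℕ) : Prop :=
  ∃ a b, Rep X.L X.π m a ∧ Rep X.L X.π n b ∧ X.Φ a * X.z = X.z * X.Φ b

def Val (l j p : ℕ) (y : G) : Prop :=
  ∃ a c, RL X.L X.π l a ∧ Rep X.L X.π p c ∧ y = X.Φ a * X.g F j * X.Φ c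

def En (i m l j n : ℕ) : Prop :=
  ∃ b, Rep X.L X.π m b ∧ X.Val F l j n (X.g F i * X.Φ b * X.z)

/-- The meaning of a fact. -/
def H (r : ℕ) : Prop := (∃ b, Rep X.L X.π (fm r) b) ∧ (cls r = 1 → X.KP (fm r) (fn r)) ∧
  (cls r = 2 → X.Val F (fl r) (fj r) (fm r) (X.g F (fi r))) ∧
  (cls r = 3 → X.En F (fi r) (fm r) (fl r) (fj r) (fn r))

/-- `z * q₁ * z * q₂ * ⋯`. -/
def zp (l : List Γ) : G := (l.map fun m => X.z * X.Φ m).prod

def Rel (l : List ℕ) : Prop := ∃ ms, List.Forall₂ (Rep X.L X.π) l ms ∧ X.zp ms = 1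

/-- The given data are right. -/
structure Ok (A : Ax) : Prop where
  ar : ∀ c ∈ A.AR, ∃ b, Rep X.L X.π c b
  ak : ∀ c ∈ A.AK, X.KP c.1 c.2
  rel : ∀ l ∈ A.R, X.Rel l

end Ctx

variable {X F} {t : ℕ}

attribute [local irreducible] mul lm ld hd tl fi fj fm fn fl cls one l0 use frc band

theorem Rep.eqv {x : ℕ} {a b : Γ} (ha : Rep X.L X.π x a) (hb : Rep X.L X.π x b) :
    X.Φ a = X.Φ b := X.uniq a ha.1 b hb.1 (Units.ext (ha.2.2.symm.trans hb.2.2))

theorem Rep.elt {x : ℕ} {a : Γ} (ha : Rep X.L X.π x a) : X.Φ (X.elt x) = X.Φ a := by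
  have h : ∃ g, Rep X.L X.π x g := ⟨a, ha⟩
  rw [Ctx.elt, dif_pos h]
  exact h.choose_spec.eqv ha

theorem g_zero : X.g F 0 = 1 := by rw [Ctx.g, if_pos rfl]

theorem g_one (h : fi (F 1) = 0 ∧ fm (F 1) = one) : X.g F 1 = X.z := by
  rw [Ctx.g, if_neg one_ne_zero, dif_pos (by omega), h.1, h.2, g_zero, rep_one.elt, map_one,
    one_mul, one_mul]

theorem use_s (hF : ∀ s < t, X.H F (F s)) {f c : ℕ} {k : ℕ → Bool} (h : use F t f c k = true) :
    ∃ r, X.H F r ∧ cls r = c ∧ k r = true := by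
  rw [use, frc_eq] at h
  obtain ⟨h1, h⟩ := band_true h
  rw [frc_eq] at h
  obtain ⟨h2, h⟩ := band_true h
  exact ⟨_, hF f (blt_lt h1), beq_eq h2, h⟩

theorem runA_s (hF : ∀ s < t, X.H F (F s)) {k : ℕ → ℕ → ℕ → ℕ → Bool} {c pf l j p : ℕ} {y : G}
    (hy : X.Val F l j p y) (h : runA F t k c pf l j p = true) :
    ∃ pf l j p, X.Val F l j p y ∧ k pf l j p = true := by
  induction c generalizing pf l j p with
  | zero => exact ⟨_, _, _, _, hy, h⟩
  | succ c ih =>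
    obtain ⟨r, hr, hc, h⟩ := use_s hF h
    obtain ⟨h1, h⟩ := band_true h
    rw [frc_eq, frc_eq, frc_eq, frc_eq] at h
    refine ih ?_ h
    obtain ⟨a, b, ha, hb, rfl⟩ := hy
    obtain ⟨a', b', ha', hb', e⟩ := hr.2.2.1 hc
    refine ⟨_, _, ha.lm ha', hb'.mul hb, ?_⟩
    rw [← beq_eq h1, e, map_mul, map_mul]
    simp only [mul_assoc]

theorem rdA_s (hF : ∀ s < t, X.H F (F s)) {k : ℕ → ℕ → ℕ → ℕ → Bool} {pf l j p : ℕ} {y : G}
    (hy : X.Val F l j p y) (h : rdA F t k pf l j p = true) :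
    ∃ pf l j p, X.Val F l j p y ∧ k pf l j p = true := runA_s hF hy h

theorem kk_s (hF : ∀ s < t, X.H F (F s)) {k : ℕ → ℕ → Bool} {a i m l j n : ℕ}
    (he : X.En F i m l j n) (h : kk F t a m n k = true) :
    ∃ m n, X.En F i m l j n ∧ k m n = true := by
  unfold kk at h
  cases e : Nat.beq a 0
  · rw [e] at h
    obtain ⟨r, hr, hc, h⟩ := use_s hF h
    simp only [frc_eq] at h
    obtain ⟨b, hb, a', c, ha', hc', e⟩ := he
    obtain ⟨u, v, hu, hv, e'⟩ := hr.2.1 hc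
    refine ⟨_, _, ⟨_, hb.mul hu, _, _, ha', hc'.mul hv, ?_⟩, h⟩
    rw [map_mul, map_mul, ← mul_assoc, ← mul_assoc, ← e, mul_assoc, e', mul_assoc, mul_assoc,
      mul_assoc]
  · rw [e] at h
    exact ⟨_, _, he, h⟩

theorem ent_s (hF : ∀ s < t, X.H F (F s)) {k : ℕ → ℕ → ℕ → ℕ → ℕ → ℕ → Bool} {pf : ℕ}
    (h : ent F t pf k = true) : ∃ pf i m l j n, X.En F i m l j n ∧ k pf i m l j n = true := by
  obtain ⟨r, hr, hc, h⟩ := use_s hF h
  rw [frc_eq] at h
  obtain ⟨m, n, he, h⟩ := kk_s hF (hr.2.2.2 hc) h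
  rw [frc_eq] at h
  obtain ⟨m, n, he, h⟩ := kk_s hF he h
  rw [frc_eq] at h
  exact ⟨_, _, _, _, _, _, he, h⟩

attribute [local irreducible] ent rdA runA kk

theorem zs_s (h1 : X.g F 1 = X.z) (hF : ∀ s < t, X.H F (F s)) {k : ℕ → ℕ → ℕ → ℕ → Bool}
    {pf l j p : ℕ} {y : G} (hy : X.Val F l j p y) (h : zs F t k pf l j p = true) :
    ∃ pf l j p, X.Val F l j p (y * X.z) ∧ k pf l j p = true := by
  unfold zs at h
  obtain ⟨pf, l, j, p, ⟨a, c, ha, hc, rfl⟩, h⟩ := rdA_s hF hy h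
  cases e : Nat.beq j 0
  · rw [e] at h
    have h' : ent F t pf (fun pf i m l' j' n => band (Nat.beq i j) (band (Nat.beq m p)
      (frc (lm l l') fun l => frc j' fun j' => k pf l j' n))) = true := h
    obtain ⟨pf, i, m, l', j', n, ⟨b, hb, a', c', ha', hc', e'⟩, h⟩ := ent_s hF h'
    obtain ⟨h2, h⟩ := band_true h
    obtain ⟨h3, h⟩ := band_true h
    rw [frc_eq, frc_eq] at h
    refine ⟨_, _, _, _, ⟨_, _, ha.lm ha', hc', ?_⟩, h⟩
    rw [beq_eq h3] at hb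
    rw [← hb.eqv hc, ← beq_eq h2, map_mul, mul_assoc (X.Φ a), mul_assoc (X.Φ a), e']
    simp only [mul_assoc]
  · rw [e] at h
    have h' : (frc (lm l p) fun l => k pf l 1 one) = true := h
    rw [frc_eq] at h'
    refine ⟨_, _, _, _, ⟨_, _, ha.lm hc.rl, rep_one, ?_⟩, h'⟩
    rw [beq_eq e, g_zero, h1, map_mul, map_one, mul_one, mul_one]

theorem run_s (h1 : X.g F 1 = X.z) (hF : ∀ s < t, X.H F (F s)) {k : ℕ → ℕ → ℕ → ℕ → Bool}
    {qs : List ℕ} {ms : List Γ} (hq : List.Forall₂ (Rep X.L X.π) qs ms) {pf l j p : ℕ} {y : G}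
    (hy : X.Val F l j p y) (h : run F t k qs pf l j p = true) :
    ∃ pf l j p, X.Val F l j p (y * X.zp ms) ∧ k pf l j p = true := by
  induction hq generalizing pf l j p y with
  | nil => exact ⟨_, _, _, _, by simpa [Ctx.zp] using hy, h⟩
  | @cons q m _ _ hq _ ih =>
    obtain ⟨pf, l, j, p, ⟨a, c, ha, hc, e⟩, h⟩ := zs_s h1 hF hy h
    rw [frc_eq] at h
    have := ih (y := y * X.z * X.Φ m) ⟨_, _, ha, hc.mul hq, by rw [e, map_mul, mul_assoc]⟩ h
    simpa [Ctx.zp, mul_assoc] using this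

theorem wrd_s (hF : ∀ s < t, X.H F (F s)) {k : ℕ → Bool} {c pf x : ℕ}
    (hx : ∃ b, Rep X.L X.π x b) (h : wrd F t k c pf x = true) :
    ∃ x, (∃ b, Rep X.L X.π x b) ∧ k x = true := by
  induction c generalizing pf x with
  | zero => exact ⟨_, hx, h⟩
  | succ c ih =>
    obtain ⟨h1, h⟩ := band_true h
    rw [frc_eq, frc_eq] at h
    obtain ⟨b, hb⟩ := hx
    obtain ⟨b', hb'⟩ := (hF _ (blt_lt h1)).1
    exact ih ⟨_, hb.mul hb'⟩ h

theorem H_K {r : ℕ} (hc : Nat.beq (cls r) 1 = true) (h : X.KP (fm r) (fn r)) : X.H F r := by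
  have := beq_eq hc
  exact ⟨h.imp fun _ ⟨_, h, _⟩ => h, fun _ => h, fun _ => by omega, fun _ => by omega⟩

theorem H_M {r : ℕ} (hc : Nat.beq (cls r) 2 = true)
    (h : X.Val F (fl r) (fj r) (fm r) (X.g F (fi r))) : X.H F r := by
  have := beq_eq hc
  obtain ⟨a, c, ha, hc, e⟩ := h
  exact ⟨⟨c, hc⟩, fun _ => by omega, fun _ => ⟨a, c, ha, hc, e⟩, fun _ => by omega⟩

theorem H_E {r : ℕ} (hc : Nat.beq (cls r) 3 = true)
    (h : X.En F (fi r) (fm r) (fl r) (fj r) (fn r)) : X.H F r := by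
  have := beq_eq hc
  exact ⟨h.imp fun _ h => h.1, fun _ => by omega, fun _ => by omega, fun _ => h⟩

theorem fin_s {r l₁ i n₁ l₂ j n₂ : ℕ} {y : G} (h₁ : X.Val F l₁ i n₁ y) (h₂ : X.Val F l₂ j n₂ y)
    (h : fin r l₁ i n₁ l₂ j n₂ = true) : X.H F r := by
  obtain ⟨h1, h⟩ := band_true h
  obtain ⟨h2, h⟩ := band_true h
  obtain ⟨h3, h⟩ := band_true h
  obtain ⟨h4, h5⟩ := band_true h
  obtain ⟨a, c, ha, hc, e⟩ := h₁
  obtain ⟨a', c', ha', hc', e'⟩ := h₂
  refine H_M h1 ⟨_, _, ha.ld ha' h4, hc.divr hc' (fm_lt r) (beq_eq h5), ?_⟩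
  rw [beq_eq h2, beq_eq h3]
  simp only [map_mul, map_inv]
  calc X.g F i = (X.Φ a)⁻¹ * (X.Φ a * X.g F i * X.Φ c) * (X.Φ c)⁻¹ := by group
    _ = _ := by rw [← e, e']; group

theorem val_self (r a : ℕ) : X.Val F (l0 r) a one (X.g F a) :=
  ⟨1, 1, rl_l0 r, rep_one, by simp⟩

theorem cT_s (h1 : X.g F 1 = X.z) (hF : ∀ s < t, X.H F (F s)) {R : List (List ℕ)}
    (hR : ∀ l ∈ R, X.Rel l) {r pf : ℕ} (h : cT F t R r pf = true) : X.H F r := by
  unfold cT at h
  have hr : nth [] R (hd pf) = [] ∨ X.Rel (nth [] R (hd pf)) := nth_mem.imp id (hR _)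
  generalize nth [] R (hd pf) = q at h hr
  rcases q with _ | ⟨q₁, _ | ⟨q₂, qs⟩⟩
  · cases h
  · cases h
  obtain ⟨ms, hms, hrel⟩ := hr.resolve_left (by simp)
  obtain ⟨pf, i, m, l, j, n, ⟨b, hb, a, c, ha, hc, e⟩, h⟩ := ent_s hF h
  obtain ⟨h2, h⟩ := band_true h
  obtain ⟨h3, h⟩ := band_true h
  obtain ⟨h4, h⟩ := band_true h
  cases hms with
  | @cons _ a₁ _ _ ha₁ hms =>
  cases hms with
  | @cons _ a₂ _ ms ha₂ hms =>
  obtain ⟨pf, l, j, p, hv, h⟩ := run_s h1 hF hms (y := X.g F i * X.Φ b * X.z * X.Φ a₂)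
    ⟨_, _, ha, hc.mul ha₂, by rw [e, map_mul, mul_assoc]⟩ h
  obtain ⟨pf, l, j, p, ⟨a', c', ha', hc', e'⟩, h⟩ := rdA_s hF hv h
  obtain ⟨h5, h⟩ := band_true h
  obtain ⟨h6, h7⟩ := band_true h
  refine H_E h2 ⟨c', beq_eq h6 ▸ hc', _, _, ha'.ld rep_one.rl h7,
    ha₁.divr hb (fn_lt r) (beq_eq h4), ?_⟩
  have h8 : X.zp ms = (X.z * X.Φ a₁ * (X.z * X.Φ a₂))⁻¹ := by
    rw [eq_inv_iff_mul_eq_one, ← mul_eq_one_comm, ← hrel]
    simp [Ctx.zp, mul_assoc]
  rw [← beq_eq h3, ← beq_eq h5]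
  simp only [map_mul, map_inv, map_one]
  calc X.g F j * X.Φ c' * X.z = (X.Φ a')⁻¹ * (X.Φ a' * X.g F j * X.Φ c') * X.z := by group
    _ = _ := by rw [← e', h8]; group

theorem cS_s (hF : ∀ s < t, X.H F (F s)) {r pf : ℕ} (h : cS F t r pf = true) : X.H F r := by
  obtain ⟨w, hw, hc, h⟩ := use_s hF h
  obtain ⟨pf, i, m, l, j, n, ⟨b, hb, hv⟩, h⟩ := ent_s hF h
  obtain ⟨h1, h⟩ := band_true h
  obtain ⟨h2, h⟩ := band_true h
  obtain ⟨h3, h⟩ := band_true h
  obtain ⟨h4, h⟩ := band_true h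
  obtain ⟨pf, l, j, p, ⟨a', c', ha', hc', e'⟩, h⟩ := rdA_s hF hv h
  obtain ⟨h5, h⟩ := band_true h
  obtain ⟨h6, h7⟩ := band_true h
  obtain ⟨a, c, ha, hc, e⟩ := hw.2.2.1 hc
  refine H_E h1 ⟨_, beq_eq h4 ▸ hc.mul hb, _, _, ha.ld ha' h7, beq_eq h6 ▸ hc', ?_⟩
  rw [beq_eq h2, beq_eq h3] at e
  rw [← beq_eq h5]
  simp only [map_mul, map_inv]
  calc X.g F (fi r) * (X.Φ c * X.Φ b) * X.z
      = (X.Φ a)⁻¹ * ((X.Φ a * X.g F (fi r) * X.Φ c) * X.Φ b * X.z) := by group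
    _ = _ := by rw [← e, e']; group

theorem cC_s (h1 : X.g F 1 = X.z) (hF : ∀ s < t, X.H F (F s)) {r pf : ℕ}
    (h : cC F t r pf = true) : X.H F r := by
  obtain ⟨e, he, hc, h⟩ := use_s hF h
  obtain ⟨b, hb, hv⟩ := he.2.2.2 hc
  obtain ⟨pf, l, j, p, hv', h⟩ := zs_s h1 hF (y := X.g F (fi e) * X.Φ b)
    ⟨1, b, rl_l0 r, hb, by simp⟩ h
  obtain ⟨pf, l, j, p, hv', h⟩ := rdA_s hF hv' h
  obtain ⟨pf, l, j, p, hv, h⟩ := rdA_s hF hv h
  exact fin_s hv hv' h

theorem cP_s (hF : ∀ s < t, X.H F (F s)) {r pf : ℕ} (h : cP F t r pf = true) : X.H F r := by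
  obtain ⟨pf, l, j, p, hv', h⟩ := rdA_s hF (val_self r _) h
  obtain ⟨pf, l, j, p, hv, h⟩ := rdA_s hF (val_self r _) h
  exact fin_s hv hv' h

theorem cD_s (hF : ∀ s < t, X.H F (F s)) {pf : ℕ} (h : cD F t (F t) pf = true) :
    X.H F (F t) := by
  obtain ⟨h1, h⟩ := band_true h
  obtain ⟨h2, h⟩ := band_true h
  obtain ⟨h3, h⟩ := band_true h
  obtain ⟨h4, h⟩ := band_true h
  obtain ⟨h5, h⟩ := band_true h
  obtain ⟨x, ⟨b, hb⟩, h⟩ := wrd_s hF ⟨1, rep_one⟩ h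
  rw [beq_eq h] at hb
  have h6 := blt_lt h2
  refine H_E h1 ⟨b, hb, 1, 1, beq_eq h4 ▸ rl_l0 _, beq_eq h5 ▸ rep_one, ?_⟩
  rw [beq_eq h3, map_one, one_mul, mul_one]
  conv_rhs => rw [Ctx.g, if_neg (by omega), dif_pos h6, hb.elt]

theorem cKP_s (hF : ∀ s < t, X.H F (F s)) {r pf : ℕ} (h : cKP F t r pf = true) : X.H F r := by
  obtain ⟨x, hx, hc, h⟩ := use_s hF h
  obtain ⟨y, hy, hc', h⟩ := use_s hF h
  obtain ⟨h1, h⟩ := band_true h
  obtain ⟨h2, h3⟩ := band_true h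
  obtain ⟨a, b, ha, hb, e⟩ := hx.2.1 hc
  obtain ⟨a', b', ha', hb', e'⟩ := hy.2.1 hc'
  refine H_K h1 ⟨_, _, beq_eq h2 ▸ ha.mul ha', beq_eq h3 ▸ hb.mul hb', ?_⟩
  rw [map_mul, map_mul, mul_assoc, e', ← mul_assoc, e, mul_assoc]

theorem cKM_s (h1 : X.g F 1 = X.z) (hF : ∀ s < t, X.H F (F s)) {r pf : ℕ}
    (h : cKM F t r pf = true) : X.H F r := by
  obtain ⟨x, hx, hc, h⟩ := use_s hF h
  obtain ⟨h2, h⟩ := band_true h
  obtain ⟨h3, h⟩ := band_true h
  obtain ⟨h4, h⟩ := band_true h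
  obtain ⟨h5, h⟩ := band_true h
  obtain ⟨h6, h7⟩ := band_true h
  obtain ⟨a, c, ha, hc, e⟩ := hx.2.2.1 hc
  rw [beq_eq h3, beq_eq h4, h1] at e
  refine H_K h2 ⟨_, _, (ha.2 (blt_lt h5).ne').divl rep_one (fm_lt r) (beq_eq h6),
    beq_eq h7 ▸ hc, ?_⟩
  rw [mul_one, map_inv, inv_mul_eq_iff_eq_mul, ← mul_assoc, ← e]

theorem cMK_s (h1 : X.g F 1 = X.z) (hF : ∀ s < t, X.H F (F s)) {r pf : ℕ}
    (h : cMK F t r pf = true) : X.H F r := by
  obtain ⟨x, hx, hc, h⟩ := use_s hF h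
  obtain ⟨h2, h⟩ := band_true h
  obtain ⟨h3, h⟩ := band_true h
  obtain ⟨h4, h⟩ := band_true h
  obtain ⟨h6, h7⟩ := band_true h
  obtain ⟨a, c, ha, hc, e⟩ := hx.2.1 hc
  refine H_M h2 ⟨_, _, ha.rl.ld rep_one.rl h6, beq_eq h7 ▸ hc, ?_⟩
  rw [beq_eq h3, beq_eq h4, h1, mul_one, map_inv, mul_assoc, ← e, inv_mul_cancel_left]

theorem chk_s (h1 : X.g F 1 = X.z) (hF : ∀ s < t, X.H F (F s)) {A : Ax} (hA : X.Ok A) {pf : ℕ}
    (h : chk A F t pf = true) : X.H F (F t) := by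
  simp only [chk, frc_eq] at h
  generalize Nat.land pf 15 = k at h
  generalize Nat.shiftRight pf 4 = pf at h
  have c : ∀ {a x y : Bool}, cnd a x y = true → x = true ∨ y = true := fun {a _ _} h => by
    cases a
    · exact .inr h
    · exact .inl h
  rcases c h with h | h
  · exact cT_s h1 hF hA.rel h
  rcases c h with h | h
  · exact cP_s hF h
  rcases c h with h | h
  · exact cS_s hF h
  rcases c h with h | h
  · exact cKP_s hF h
  rcases c h with h | h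
  · exact cC_s h1 hF h
  rcases c h with h | h
  · exact cD_s hF h
  rcases c h with h | h
  · exact cKM_s h1 hF h
  rcases c h with h | h
  · exact cMK_s h1 hF h
  rcases c h with h | h
  · obtain ⟨h2, h3⟩ := band_true h
    have := beq_eq h2
    refine ⟨?_, fun _ => by omega, fun _ => by omega, fun _ => by omega⟩
    rw [← beq_eq h3]
    rcases nth_mem (d := one) (l := A.AR) (r := pf) with e | e
    · rw [e]; exact ⟨1, rep_one⟩
    · exact hA.ar _ e
  · obtain ⟨h2, h⟩ := band_true h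
    obtain ⟨h3, h4⟩ := band_true h
    refine H_K h2 ?_
    rw [← beq_eq h3, ← beq_eq h4]
    rcases nth_mem (d := (one, one)) (l := A.AK) (r := pf) with e | e
    · rw [e]; exact ⟨1, 1, rep_one, rep_one, by simp⟩
    · exact hA.ak _ e

/-- The facts below `t` pass the check. -/
def Pass (A : Ax) (F : ℕ → ℕ) (t : ℕ) : Prop := ∀ s < t, ∃ pf, chk A F s pf = true

theorem Pass.zero {A : Ax} : Pass A F 0 := fun _ h => absurd h (Nat.not_lt_zero _)

theorem Pass.add {A : Ax} {l : List ℕ} {t : ℕ} (hp : Pass A F t) (h : chkL A F l t = true) :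
    Pass A F (t + l.length) := by
  induction l generalizing t with
  | nil => exact hp
  | cons d l ih =>
    obtain ⟨h1, h2⟩ := band_true h
    rw [frc_eq] at h2
    have := ih (t := t + 1) (fun s hs => by
      rcases Nat.lt_succ_iff_lt_or_eq.1 hs with h | rfl
      · exact hp s h
      · exact ⟨d, h1⟩) h2
    intro s hs
    exact this s (by simp at hs; omega)

theorem Pass.sound {A : Ax} (hp : Pass A F t) (h1 : fi (F 1) = 0 ∧ fm (F 1) = one)
    (hA : X.Ok A) : ∀ s < t, X.H F (F s) := fun s => by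
  induction s using Nat.strong_induction_on with
  | _ s ih =>
    intro hs
    obtain ⟨pf, h⟩ := hp s hs
    exact chk_s (g_one h1) (fun u hu => ih u hu (hu.trans hs)) hA h

theorem Rel.rot {a : ℕ} {l : List ℕ} (h : X.Rel (a :: l)) : X.Rel (l ++ [a]) := by
  obtain ⟨ms, hms, e⟩ := h
  cases hms with
  | @cons _ m _ ms hm hms =>
    refine ⟨ms ++ [m], List.rel_append hms (.cons hm .nil), ?_⟩
    simp only [Ctx.zp, List.map_cons, List.prod_cons, List.map_append, List.prod_append,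
      List.map_nil, List.prod_nil, mul_one] at e ⊢
    exact mul_eq_one_comm.1 e

end Cfsg.Agent.TE
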