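import Cfsg.Agent.Lib.Th.DC

/-!
Completeness of a double coset enumeration and the bound for the order.
-/

set_option autoImplicit false
set_option exponentiation.threshold 2000

namespace Cfsg.Agent.TE

open Cfsg.Agent.PC Cfsg.Agent.Pk Matrix

/-- A hash function for vectors. -/
def hsh (D p N v : ℕ) : ℕ :=
  Nat.mod (Nat.add v (Nat.land (Nat.shiftRight D (Nat.mul 16 (Nat.mod v p))) 65535)) N

/-- Marking the columns. -/
noncomputable def mrk (h : ℕ → ℕ) (k : ℕ → Bool) (n : ℕ) : ℕ → ℕ → Bool :=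
  Nat.rec (fun _ M => k M) (fun _ ih Y M => frc (Nat.land Y 16777215) fun v => frc (h v) fun x =>
    frc (Nat.lor M (Nat.shiftLeft 1 x)) fun M => frc (Nat.shiftRight Y 24) fun Y => ih Y M) n

section
variable (F : ℕ → ℕ) (t : ℕ)

/-- The points of the entries. -/
noncomputable def pts (i v : ℕ) (al : List ℕ) (k : ℕ → Bool) (c : ℕ) : ℕ → ℕ → Bool :=
  Nat.rec (fun _ P => k P) (fun _ ih pf P => use F t (hd pf) 3 fun r => band (Nat.beq (fi r) i)
    (band (mem (fj r) al) (frc (tl pf) fun pf =>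
      frc (Nat.add (Nat.shiftLeft P 24) (ap (fm r) v)) fun P => ih pf P))) c

/-- The images of the points. -/
noncomputable def ims (h : ℕ → ℕ) (i n o P N c : ℕ) : ℕ → ℕ → ℕ → Bool :=
  Nat.rec (fun _ _ M => Nat.beq (Nat.succ M) (Nat.pow 2 N)) (fun _ ih pf a M =>
    use F t (hd pf) 2 fun r => band (Nat.beq (fi r) i) (band (Nat.beq (fj r) i)
      (frc (fm r) fun m => band (Nat.blt a m) (frc (tl pf) fun pf =>
        frc (mw o m P) fun Y => mrk h (ih pf m) n Y M)))) c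

/-- The entries `pe` and the moves `ps` cover all points. -/
noncomputable def cov (h : ℕ → ℕ) (v N : ℕ) (al : List ℕ) (i ne pe ns ps : ℕ) : Bool :=
  pts F t i v al (fun P => frc (ones 24 ne) fun o => ims F t h i ne o P N ns ps 0 0) ne pe 0

noncomputable def ktB (v w c : ℕ) : ℕ → ℕ → Bool :=
  Nat.rec (fun _ _ => true) (fun _ ih pf a => use F t (hd pf) 1 fun r => frc (fm r) fun m =>
    band (Nat.beq (ap m v) v) (band (Nat.beq (ap m w) w) (band (Nat.blt a m)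
      (frc (tl pf) fun pf => ih pf m)))) c

noncomputable def ktA (v w c : ℕ) : ℕ → ℕ → Bool :=
  Nat.rec (fun _ _ => true) (fun _ ih pf a => use F t (hd pf) 1 fun r =>
    band (Nat.beq (ap (fm r) v) v) (frc (ap (fm r) w) fun m => band (Nat.blt a m)
      (frc (tl pf) fun pf => ih pf m))) c

end

attribute [local irreducible] mul lm ld hd tl fi fj fm fn fl cls one l0 use frc band ap mw

/-- The vectors, with the action of the invertible matrices. -/
def Wt : Type := Vt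

instance : MulAction Mtˣ Wt where
  smul g w := (g.1 *ᵥ (w : Vt) : Vt)
  one_smul w := one_mulVec (w : Vt)
  mul_smul g h w := (mulVec_mulVec (w : Vt) g.1 h.1).symm

instance : Finite Wt := inferInstanceAs (Finite Vt)

/-- The vector with a given code. -/
def vc (x j : ℕ) : Wt := col x j

theorem card_orb (P : Subgroup Mtˣ) (w : Wt) :
    Nat.card P = (MulAction.orbit P w).ncard * Nat.card (MulAction.stabilizer P w) := by
  rw [← MulAction.index_stabilizer, mul_comm, Subgroup.card_mul_index]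

theorem vc_shl (P a j : ℕ) (ha : a < 2 ^ 24) :
    vc (Nat.add (Nat.shiftLeft P 24) a) 0 = vc a 0 ∧
      vc (Nat.add (Nat.shiftLeft P 24) a) (j + 1) = vc P j := by
  have e : Nat.add (Nat.shiftLeft P 24) a = 2 ^ 24 * P + a := by
    change P <<< 24 + a = _
    rw [Nat.shiftLeft_eq, mul_comm]
  rw [e]
  constructor <;> funext i
  · simp only [vc, col, bt, Nat.testBit_two_pow_mul_add _ ha]
    simp
  · simp only [vc, col, bt, Nat.testBit_two_pow_mul_add _ ha]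
    rw [if_neg (show ¬ 24 * (j + 1) + (i : ℕ) < 24 by omega),
      show 24 * (j + 1) + i - 24 = 24 * j + i by omega]

theorem vc_shr (Y j : ℕ) : vc (Nat.shiftRight Y 24) j = vc Y (j + 1) := by
  funext i
  change bt (Y >>> 24) _ = bt Y _
  simp only [bt, Nat.testBit_shiftRight]
  rw [show 24 + (24 * j + i) = 24 * (j + 1) + i by omega]

theorem land_eq (Y : ℕ) : Nat.land Y 16777215 = lane 24 Y 0 := by
  change Y &&& (2 ^ 24 - 1) = _
  rw [Nat.and_two_pow_sub_one_eq_mod, lane]; simp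

/-- The marked values come from good vectors. -/
def Mk (h : ℕ → ℕ) (Q : Wt → Prop) (M : ℕ) : Prop :=
  ∀ x, M.testBit x = true → ∃ w < 2 ^ 24, Q (vc w 0) ∧ h w = x

theorem mrk_s {h : ℕ → ℕ} {Q : Wt → Prop} {k : ℕ → Bool} {n Y M : ℕ} (hY : ∀ j < n, Q (vc Y j))
    (hM : Mk h Q M) (e : mrk h k n Y M = true) : ∃ M, Mk h Q M ∧ k M = true := by
  induction n generalizing Y M with
  | zero => exact ⟨_, hM, e⟩
  | succ n ih =>
    have e' : (frc (Nat.land Y 16777215) fun v => frc (h v) fun x =>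
      frc (Nat.lor M (Nat.shiftLeft 1 x)) fun M => frc (Nat.shiftRight Y 24) fun Y =>
        mrk h k n Y M) = true := e
    rw [frc_eq, frc_eq, frc_eq, frc_eq] at e'
    refine ih (fun j hj => ?_) (fun x hx => ?_) e'
    · rw [vc_shr]; exact hY _ (by omega)
    · have : (M ||| 1 <<< h (Nat.land Y 16777215)).testBit x = true := hx
      rw [Nat.testBit_or, Bool.or_eq_true] at this
      rcases this with hx | hx
      · exact hM x hx
      · refine ⟨_, ?_, ?_, testBit_one_shl.1 hx⟩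
        · rw [land_eq]; exact lane_lt _ _ _
        · rw [land_eq, vc, col_lane]; exact hY 0 (by omega)

theorem Mk.le {h : ℕ → ℕ} {Q : Wt → Prop} {M N : ℕ} (hM : Mk h Q M) (e : M + 1 = 2 ^ N) :
    N ≤ {w | Q w}.ncard := by
  have h1 : ∀ x : Fin N, ∃ w < 2 ^ 24, Q (vc w 0) ∧ h w = x := fun x => hM x (by
    rw [show M = 2 ^ N - 1 by omega, Nat.testBit_two_pow_sub_one]; simp)
  choose f f1 f2 f3 using h1
  have := Nat.card_le_card_of_injective (fun x : Fin N => (⟨vc (f x) 0, f2 x⟩ : {w | Q w}))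
    fun x y e => Fin.ext (by
      rw [← f3, ← f3, col_inj (f1 x) (f1 y) (congrArg Subtype.val e)])
  rwa [Nat.card_eq_fintype_card, Fintype.card_fin] at this

theorem cnt_succ {Q : ℕ → Prop} {B a m c : ℕ} (hQ : ∀ x, Q x → x < B) (ham : a < m) (hm : Q m)
    (h : c ≤ {x | m < x ∧ Q x}.ncard) : c + 1 ≤ {x | a < x ∧ Q x}.ncard := by
  have fin : ∀ a, {x | a < x ∧ Q x}.Finite := fun a =>
    (Set.finite_lt_nat B).subset fun x hx => hQ x hx.2
  have := Set.ncard_le_ncard (s := insert m {x | m < x ∧ Q x}) (t := {x | a < x ∧ Q x})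
    (by rintro x (rfl | hx); exacts [⟨ham, hm⟩, ⟨ham.trans hx.1, hx.2⟩]) (fin a)
  rw [Set.ncard_insert_of_notMem (by simp) (fin m)] at this
  omega

variable {Γ G : Type} [Group Γ] [Group G] {X : Ctx Γ G} {F : ℕ → ℕ} {t : ℕ}

theorem Rep.vc_ap {L : Subgroup Γ} {π : Γ →* Mtˣ} {x : ℕ} {g : Γ} (h : Rep L π x g) (v : ℕ) :
    vc (ap x v) 0 = π g • vc v 0 := by
  rw [vc, col_ap, h.2.2]; rfl

variable (X F) in
/-- The union of the double cosets. -/
def Ctx.D (al : List ℕ) : Set G :=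
  {y | ∃ j ∈ al, ∃ a ∈ X.L, ∃ c ∈ X.L, y = X.Φ a * X.g F j * X.Φ c}

variable (X F) in
def Ctx.Good (al : List ℕ) (i v : ℕ) (w : Wt) : Prop :=
  ∃ c ∈ X.L, X.π c • vc v 0 = w ∧ X.g F i * X.Φ c * X.z ∈ X.D F al

variable (X F) in
/-- The stabiliser of a coset. -/
def Ctx.S (i : ℕ) : Subgroup X.L where
  carrier := {c | ∃ a ∈ X.L, X.g F i * X.Φ c = X.Φ a * X.g F i}
  one_mem' := ⟨1, one_mem _, by simp⟩
  mul_mem' := by
    rintro c d ⟨a, ha, e⟩ ⟨b, hb, e'⟩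
    exact ⟨a * b, mul_mem ha hb, by
      rw [Subgroup.coe_mul, map_mul, ← mul_assoc, e, mul_assoc, e', map_mul, mul_assoc]⟩
  inv_mem' := by
    rintro c ⟨a, ha, e⟩
    refine ⟨a⁻¹, inv_mem ha, ?_⟩
    rw [Subgroup.coe_inv, map_inv, map_inv, eq_inv_mul_iff_mul_eq, ← mul_assoc, ← e]
    simp

theorem D_left {al : List ℕ} {y : G} (h : y ∈ X.D F al) {a : Γ} (ha : a ∈ X.L) :
    X.Φ a * y ∈ X.D F al := by
  obtain ⟨j, hj, b, hb, c, hc, rfl⟩ := h
  exact ⟨j, hj, _, mul_mem ha hb, c, hc, by simp [mul_assoc]⟩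

theorem D_right {al : List ℕ} {y : G} (h : y ∈ X.D F al) {a : Γ} (ha : a ∈ X.L) :
    y * X.Φ a ∈ X.D F al := by
  obtain ⟨j, hj, b, hb, c, hc, rfl⟩ := h
  exact ⟨j, hj, b, hb, _, mul_mem hc ha, by simp [mul_assoc]⟩

theorem pts_s (hF : ∀ s < t, X.H F (F s)) {i v : ℕ} {al : List ℕ} {k : ℕ → Bool} {c pf P n : ℕ}
    (hP : ∀ j < n, X.Good F al i v (vc P j)) (h : pts F t i v al k c pf P = true) :
    ∃ P, (∀ j < n + c, X.Good F al i v (vc P j)) ∧ k P = true := by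
  induction c generalizing pf P n with
  | zero => exact ⟨_, hP, h⟩
  | succ c ih =>
    obtain ⟨r, hr, hc, h⟩ := use_s hF h
    obtain ⟨h1, h⟩ := band_true h
    obtain ⟨h2, h⟩ := band_true h
    rw [frc_eq, frc_eq] at h
    rw [show n + (c + 1) = n + 1 + c by omega]
    refine ih (fun j hj => ?_) h
    cases j with
    | zero =>
      obtain ⟨b, hb, a, c, ha, hc, e⟩ := hr.2.2.2 hc
      rw [(vc_shl _ _ 0 (ap_lt _ _)).1, hb.vc_ap]
      exact ⟨b, hb.1, rfl, _, mem_iff.1 h2, a, ha.1, c, hc.1, beq_eq h1 ▸ e⟩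
    | succ j =>
      rw [(vc_shl _ _ j (ap_lt _ _)).2]
      exact hP j (by omega)

theorem ims_s (hF : ∀ s < t, X.H F (F s)) {h : ℕ → ℕ} {i v n P N c pf a M : ℕ} {al : List ℕ}
    (hP : ∀ j < n, X.Good F al i v (vc P j)) (hM : Mk h (X.Good F al i v) M)
    (e : ims F t h i n (ones 24 n) P N c pf a M = true) :
    N ≤ {w | X.Good F al i v w}.ncard ∧
      c ≤ {x | a < x ∧ ∃ s ∈ X.S F i, Rep X.L X.π x s}.ncard := by
  induction c generalizing pf a M with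
  | zero => exact ⟨hM.le (beq_eq e), Nat.zero_le _⟩
  | succ c ih =>
    obtain ⟨r, hr, hc, e⟩ := use_s hF e
    obtain ⟨h1, e⟩ := band_true e
    obtain ⟨h2, e⟩ := band_true e
    rw [frc_eq] at e
    obtain ⟨h3, e⟩ := band_true e
    rw [frc_eq, frc_eq] at e
    obtain ⟨l, s, hl, hs, e'⟩ := hr.2.2.1 hc
    rw [beq_eq h1, beq_eq h2] at e'
    have e₁ : X.g F i * X.Φ s = X.Φ l⁻¹ * X.g F i := by
      rw [map_inv, eq_inv_mul_iff_mul_eq, ← mul_assoc, ← e']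
    have hY : ∀ j < n, X.Good F al i v (vc (mw (ones 24 n) (fm r) P) j) := fun j hj => by
      obtain ⟨b, hb, e₂, hd⟩ := hP j hj
      refine ⟨s * b, mul_mem hs.1 hb, ?_, ?_⟩
      · rw [map_mul, mul_smul, e₂, vc, vc, col_mw hj, hs.2.2]; rfl
      · rw [map_mul, ← mul_assoc, e₁, mul_assoc, mul_assoc, ← mul_assoc (X.g F i)]
        exact D_left hd (inv_mem hl.1)
    obtain ⟨M', hM', e⟩ := mrk_s hY hM e
    obtain ⟨r1, r2⟩ := ih hM' e
    exact ⟨r1, cnt_succ (B := 2 ^ 576) (fun x ⟨_, _, hx⟩ => hx.2.1) (blt_lt h3)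
      ⟨⟨s, hs.1⟩, ⟨_, inv_mem hl.1, e₁⟩, hs⟩ r2⟩

theorem ncard_code_le {L : Subgroup Γ} {π : Γ →* Mtˣ} {β : Type} [Finite β] (T : Set β)
    (f : β → Γ) {a : ℕ} : {x | a < x ∧ ∃ s ∈ T, Rep L π x (f s)}.ncard ≤ T.ncard := by
  have h1 : ∀ x : {x | a < x ∧ ∃ s ∈ T, Rep L π x (f s)}, ∃ s ∈ T, Rep L π x (f s) :=
    fun x => x.2.2
  choose g g1 g2 using h1
  exact Nat.card_le_card_of_injective (fun x => (⟨g x, g1 x⟩ : T)) fun x y e =>
    Subtype.ext (toM_inj (g2 x).2.1 (g2 y).2.1 (by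
      rw [(g2 x).2.2, (g2 y).2.2, show g x = g y from congrArg Subtype.val e]))

theorem cov_s [Finite X.L] (hF : ∀ s < t, X.H F (F s)) {h : ℕ → ℕ} {v N i ne pe ns ps : ℕ}
    {al : List ℕ} (e : cov F t h v N al i ne pe ns ps = true) :
    N ≤ {w | X.Good F al i v w}.ncard ∧ ns ≤ Nat.card (X.S F i) := by
  obtain ⟨P, hP, e⟩ := pts_s (n := 0) hF (fun _ h => absurd h (Nat.not_lt_zero _)) e
  rw [frc_eq] at e
  rw [zero_add] at hP
  obtain ⟨r1, r2⟩ := ims_s hF hP (fun x hx => by simp at hx) e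
  exact ⟨r1, r2.trans (ncard_code_le (X.S F i : Set X.L) Subtype.val)⟩

variable (X) in
/-- The elements that fix the vector and can be moved across `z`. -/
def Ctx.K (v : ℕ) : Subgroup Γ where
  carrier := {c | c ∈ X.L ∧ X.π c • vc v 0 = vc v 0 ∧ ∃ a ∈ X.L, X.Φ c * X.z = X.z * X.Φ a}
  one_mem' := ⟨one_mem _, by simp, 1, one_mem _, by simp⟩
  mul_mem' := by
    rintro c d ⟨hc, h, a, ha, e⟩ ⟨hd, h', b, hb, e'⟩
    exact ⟨mul_mem hc hd, by rw [map_mul, mul_smul, h', h], a * b, mul_mem ha hb, by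
      rw [map_mul, mul_assoc, e', ← mul_assoc, e, map_mul, mul_assoc]⟩
  inv_mem' := by
    rintro c ⟨hc, h, a, ha, e⟩
    refine ⟨inv_mem hc, by rw [map_inv, inv_smul_eq_iff, h], a⁻¹, inv_mem ha, ?_⟩
    rw [map_inv, map_inv, inv_mul_eq_iff_eq_mul, ← mul_assoc, e]
    simp

theorem mem_K {v r : ℕ} (hr : X.KP (fm r) (fn r)) (h : Nat.beq (ap (fm r) v) v = true) :
    ∃ a ∈ X.K v, Rep X.L X.π (fm r) a := by
  obtain ⟨a, b, ha, hb, e⟩ := hr
  exact ⟨a, ⟨ha.1, by rw [← ha.vc_ap, beq_eq h], b, hb.1, e⟩, ha⟩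

theorem ktB_s (hF : ∀ s < t, X.H F (F s)) {v w c pf a : ℕ} (e : ktB F t v w c pf a = true) :
    c ≤ {x | a < x ∧ ∃ s ∈ X.K v, X.π s • vc w 0 = vc w 0 ∧ Rep X.L X.π x s}.ncard := by
  induction c generalizing pf a with
  | zero => exact Nat.zero_le _
  | succ c ih =>
    obtain ⟨r, hr, hc, e⟩ := use_s hF e
    rw [frc_eq] at e
    obtain ⟨h1, e⟩ := band_true e
    obtain ⟨h2, e⟩ := band_true e
    obtain ⟨h3, e⟩ := band_true e
    rw [frc_eq] at e
    obtain ⟨s, hs, hr⟩ := mem_K (hr.2.1 hc) h1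
    exact cnt_succ (B := 2 ^ 576) (fun x ⟨_, _, _, hx⟩ => hx.2.1) (blt_lt h3)
      ⟨s, hs, by rw [← hr.vc_ap, beq_eq h2], hr⟩ (ih e)

theorem ktA_s (hF : ∀ s < t, X.H F (F s)) {v w c pf a : ℕ} (e : ktA F t v w c pf a = true) :
    c ≤ {x | a < x ∧ x < 2 ^ 24 ∧ ∃ s ∈ X.K v, X.π s • vc w 0 = vc x 0}.ncard := by
  induction c generalizing pf a with
  | zero => exact Nat.zero_le _
  | succ c ih =>
    obtain ⟨r, hr, hc, e⟩ := use_s hF e
    obtain ⟨h1, e⟩ := band_true e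
    rw [frc_eq] at e
    obtain ⟨h3, e⟩ := band_true e
    rw [frc_eq] at e
    obtain ⟨s, hs, hr⟩ := mem_K (hr.2.1 hc) h1
    exact cnt_succ (B := 2 ^ 24) (fun x hx => hx.1) (blt_lt h3)
      ⟨ap_lt _ _, s, hs, (hr.vc_ap w).symm⟩ (ih e)

theorem kt_s (hF : ∀ s < t, X.H F (F s)) {v w ca pa cb pb : ℕ}
    (ea : ktA F t v w ca pa 0 = true) (eb : ktB F t v w cb pb 0 = true) :
    ca * cb ≤ Nat.card ((X.K v).map X.π) := by
  rw [card_orb _ (vc w 0)]
  refine Nat.mul_le_mul ((ktA_s hF ea).trans ?_) ((ktB_s hF eb).trans ?_)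
  · refine Set.ncard_le_ncard_of_injOn (fun x => vc x 0) ?_ ?_ (Set.toFinite _)
    · rintro x ⟨-, -, s, hs, e⟩
      exact ⟨⟨_, s, hs, rfl⟩, e⟩
    · exact fun x hx y hy e => col_inj hx.2.1 hy.2.1 e
  · have h1 : ∀ x : {x | 0 < x ∧ ∃ s ∈ X.K v, X.π s • vc w 0 = vc w 0 ∧ Rep X.L X.π x s},
        ∃ s ∈ X.K v, X.π s • vc w 0 = vc w 0 ∧ Rep X.L X.π x s := fun x => x.2.2
    choose g g1 g2 g3 using h1
    refine Nat.card_le_card_of_injective (β := MulAction.stabilizer ((X.K v).map X.π) (vc w 0))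
      (fun x => ⟨⟨_, g x, g1 x, rfl⟩, g2 x⟩) fun x y e =>
        Subtype.ext (toM_inj (g3 x).2.1 (g3 y).2.1 ?_)
    rw [(g3 x).2.2, (g3 y).2.2]
    exact congrArg (fun a => a.1.1.1) e

theorem good_sub {al : List ℕ} {i v : ℕ} :
    {w | X.Good F al i v w} ⊆ MulAction.orbit (X.L.map X.π) (vc v 0) := by
  rintro w ⟨c, hc, e, -⟩
  exact ⟨⟨_, c, hc, rfl⟩, e⟩

/-- Counting shows that the model is faithful and that the stabiliser is known. -/
theorem count [Finite X.L] {v N κ : ℕ} (hL : Nat.card X.L ≤ N * κ)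
    (hN : N ≤ (MulAction.orbit (X.L.map X.π) (vc v 0)).ncard)
    (hK : κ ≤ Nat.card ((X.K v).map X.π)) :
    (∀ g ∈ X.L, ∀ h ∈ X.L, X.π g = X.π h → g = h) ∧ Nat.card X.L = N * κ ∧
      (MulAction.orbit (X.L.map X.π) (vc v 0)).ncard ≤ N ∧
      ∀ c ∈ X.L, X.π c • vc v 0 = vc v 0 → c ∈ X.K v := by
  have h1 := card_orb (X.L.map X.π) (vc v 0)
  let φ : (X.K v).map X.π → MulAction.stabilizer (X.L.map X.π) (vc v 0) := fun x =>
    ⟨⟨x.1, x.2.imp fun _ h => ⟨h.1.1, h.2⟩⟩, by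
      obtain ⟨_, s, hs, rfl⟩ := x
      exact hs.2.1⟩
  have hφ : Function.Injective φ := fun x y e => Subtype.ext (congrArg (fun a => a.1.1) e)
  have h2 := Nat.card_le_card_of_injective φ hφ
  have hs : Function.Surjective (X.π.subgroupMap X.L) := X.π.subgroupMap_surjective X.L
  have h3 := Nat.card_le_card_of_surjective _ hs
  have p1 : 0 < Nat.card X.L := Nat.card_pos
  have p2 : 0 < Nat.card (X.L.map X.π) := Nat.card_pos
  have p3 : 0 < Nat.card (MulAction.stabilizer (X.L.map X.π) (vc v 0)) := Nat.card_pos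
  have pN : 0 < N := Nat.pos_of_mul_pos_right (p1.trans_le hL)
  have pκ : 0 < κ := Nat.pos_of_mul_pos_left (p1.trans_le hL)
  set o := (MulAction.orbit (X.L.map X.π) (vc v 0)).ncard
  set s := Nat.card (MulAction.stabilizer (X.L.map X.π) (vc v 0))
  have h4 : N * κ ≤ o * s := Nat.mul_le_mul hN (hK.trans h2)
  have h5 : o ≤ N := by
    by_contra h
    have := Nat.mul_lt_mul_of_lt_of_le (not_le.1 h) (hK.trans h2) p3
    omega
  have h6 : s ≤ κ := by
    by_contra h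
    have := Nat.mul_lt_mul_of_le_of_lt hN (not_le.1 h) (pN.trans_le hN)
    omega
  have hb := (hs.bijective_of_nat_card_le (by omega)).1
  have hi : ∀ g ∈ X.L, ∀ h ∈ X.L, X.π g = X.π h → g = h := fun g hg h hh e =>
    congrArg Subtype.val (hb (a₁ := ⟨g, hg⟩) (a₂ := ⟨h, hh⟩) (Subtype.ext e))
  refine ⟨hi, by omega, h5, fun c hc e => ?_⟩
  obtain ⟨⟨_, s, hs, rfl⟩, e'⟩ := (hφ.bijective_of_nat_card_le (by omega)).2 ⟨⟨_, c, hc, rfl⟩, e⟩
  rwa [← hi s hs.1 c hc (congrArg (fun a => a.1.1) e')]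

theorem ncard_dc [Finite X.L] {i n : ℕ} (hn : 0 < n) (h : n ≤ Nat.card (X.S F i)) :
    (X.D F [i]).Finite ∧ (X.D F [i]).ncard ≤ Nat.card X.L * (Nat.card X.L / n) := by
  let f : X.L × (X.L ⧸ X.S F i) → G := fun p => X.Φ p.1 * X.g F i * X.Φ (p.2.out⁻¹ : X.L)
  have hs : X.D F [i] ⊆ Set.range f := by
    rintro y ⟨j, hj, a, ha, c, hc, rfl⟩
    obtain rfl : j = i := by simpa using hj
    obtain ⟨⟨s, b, hb, e⟩, e'⟩ := QuotientGroup.mk_out_eq_mul (X.S F j) (⟨c, hc⟩ : X.L)⁻¹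
    refine ⟨(⟨a * b, mul_mem ha hb⟩, ((⟨c, hc⟩ : X.L)⁻¹ : X.L)), ?_⟩
    simp only [f, e', _root_.mul_inv_rev, inv_inv, Subgroup.coe_mul, map_mul, Subgroup.coe_inv,
      map_inv]
    rw [mul_assoc (X.Φ a), ← e]
    group
  refine ⟨(Set.finite_range f).subset hs, (Set.ncard_le_ncard hs (Set.finite_range f)).trans ?_⟩
  refine (Finite.card_range_le f).trans ?_
  rw [Nat.card_prod]
  refine Nat.mul_le_mul_left _ ((Nat.le_div_iff_mul_le hn).2 ?_)
  rw [Subgroup.card_eq_card_quotient_mul_card_subgroup (X.S F i)]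
  exact Nat.mul_le_mul_left _ h

/-- The bound for the number of cosets. -/
def tot (c : ℕ) (l : List (ℕ × ℕ)) : ℕ := (l.map fun p => c / p.2).sum

theorem ncard_D [Finite X.L] {l : List (ℕ × ℕ)}
    (h : ∀ p ∈ l, 0 < p.2 ∧ p.2 ≤ Nat.card (X.S F p.1)) :
    (X.D F (l.map Prod.fst)).Finite ∧
      (X.D F (l.map Prod.fst)).ncard ≤ Nat.card X.L * tot (Nat.card X.L) l := by
  induction l with
  | nil =>
    have : X.D F (([] : List (ℕ × ℕ)).map Prod.fst) = ∅ := by ext; simp [Ctx.D]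
    rw [this]; simp
  | cons p l ih =>
    obtain ⟨h1, h2⟩ := ih fun q hq => h q (List.mem_cons_of_mem _ hq)
    obtain ⟨h3, h4⟩ := ncard_dc (h p List.mem_cons_self).1 (h p List.mem_cons_self).2
    have : X.D F ((p :: l).map Prod.fst) = X.D F [p.1] ∪ X.D F (l.map Prod.fst) := by
      ext; simp [Ctx.D, or_and_right, exists_or]
    rw [this]
    refine ⟨h3.union h1, (Set.ncard_union_le _ _).trans ?_⟩
    rw [tot, List.map_cons, List.sum_cons, mul_add]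
    exact Nat.add_le_add h4 h2

/-- The checks that end an enumeration. -/
structure Fin' (A : Ax) (F : ℕ → ℕ) (t v N κ : ℕ) (l : List (ℕ × ℕ)) : Prop where
  pass : Pass A F t
  one : fi (F 1) = 0 ∧ fm (F 1) = one
  mem : ∃ n, (1, n) ∈ l
  pos : ∀ p ∈ l, 0 < p.2
  kt : ∃ w ca pa cb pb, ca * cb = κ ∧ ktA F t v w ca pa 0 = true ∧ ktB F t v w cb pb 0 = true
  cov : ∀ p ∈ l, ∃ h ne pe ps, cov F t h v N (0 :: l.map Prod.fst) p.1 ne pe p.2 ps = true

theorem Fin'.count [Finite X.L] {A : Ax} {v N κ : ℕ} {l : List (ℕ × ℕ)} (h : Fin' A F t v N κ l)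
    (hA : X.Ok A) (hL : Nat.card X.L ≤ N * κ) :
    (∀ g ∈ X.L, ∀ h ∈ X.L, X.π g = X.π h → g = h) ∧ Nat.card X.L = N * κ ∧
      (MulAction.orbit (X.L.map X.π) (vc v 0)).ncard ≤ N ∧
      ∀ c ∈ X.L, X.π c • vc v 0 = vc v 0 → c ∈ X.K v := by
  have hF := h.pass.sound h.one hA
  obtain ⟨n, hn⟩ := h.mem
  obtain ⟨_, _, _, _, e⟩ := h.cov _ hn
  obtain ⟨w, ca, pa, cb, pb, rfl, ea, eb⟩ := h.kt
  exact TE.count hL ((cov_s hF e).1.trans (Set.ncard_le_ncard good_sub (Set.toFinite _)))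
    (kt_s hF ea eb)

theorem Fin'.bound [Finite X.L] {A : Ax} {v N κ : ℕ} {l : List (ℕ × ℕ)} (h : Fin' A F t v N κ l)
    (hA : X.Ok A) (hL : Nat.card X.L ≤ N * κ) {p q : ℕ} (hpq : [p, q] ∈ A.R) :
    Finite (Subgroup.closure (insert X.z (X.Φ '' X.L))) ∧
      Nat.card (Subgroup.closure (insert X.z (X.Φ '' X.L))) ≤ N * κ * (1 + tot (N * κ) l) := by
  have hF := h.pass.sound h.one hA
  obtain ⟨-, hc, ho, hk⟩ := h.count hA hL
  have p1 : 0 < Nat.card X.L := Nat.card_pos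
  have hz : ∀ y ∈ X.D F (0 :: l.map Prod.fst), y * X.z ∈ X.D F (0 :: l.map Prod.fst) := by
    rintro y ⟨j, hj, a, ha, c, hc, rfl⟩
    rcases List.mem_cons.1 hj with rfl | hj
    · obtain ⟨n, hn⟩ := h.mem
      exact ⟨1, List.mem_cons_of_mem _ (List.mem_map.2 ⟨_, hn, rfl⟩), _, mul_mem ha hc, 1,
        one_mem _, by rw [g_zero, g_one h.one]; simp⟩
    · obtain ⟨p, hp, rfl⟩ := List.mem_map.1 hj
      obtain ⟨_, _, _, _, e⟩ := h.cov _ hp
      have h1 := Set.eq_of_subset_of_ncard_le good_sub (ho.trans (cov_s hF e).1) (Set.toFinite _)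
      obtain ⟨d, hd, e₁, hD⟩ : X.π c • vc v 0 ∈ {w | X.Good F (0 :: l.map Prod.fst) p.1 v w} := by
        rw [h1]; exact ⟨⟨_, c, hc, rfl⟩, rfl⟩
      obtain ⟨-, -, b, hb, e₂⟩ := hk (d⁻¹ * c) (mul_mem (inv_mem hd) hc) (by
        rw [map_mul, mul_smul, ← e₁, map_inv, inv_smul_smul])
      have : X.Φ a * X.g F p.1 * X.Φ c * X.z = X.Φ a * (X.g F p.1 * X.Φ d * X.z * X.Φ b) := by
        rw [mul_assoc _ X.z, ← e₂, map_mul, map_inv]; group
      rw [this]
      exact D_left (D_right hD hb) ha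
  obtain ⟨ms, hms, hrel⟩ := hA.rel _ hpq
  obtain ⟨a, b, ha, hb, rfl⟩ : ∃ a b, a ∈ X.L ∧ b ∈ X.L ∧ ms = [a, b] := by
    cases hms with
    | cons ha hms =>
    cases hms with
    | cons hb hms =>
    cases hms
    exact ⟨_, _, ha.1, hb.1, rfl⟩
  have hzi : X.z⁻¹ = X.Φ a * X.z * X.Φ b := by
    rw [inv_eq_iff_mul_eq_one, ← hrel]; simp [Ctx.zp, mul_assoc]
  have hs : (Subgroup.closure (insert X.z (X.Φ '' X.L)) : Set G) ⊆ X.D F (0 :: l.map Prod.fst) := by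
    intro y hy
    induction hy using Subgroup.closure_induction_right with
    | one => exact ⟨0, List.mem_cons_self, 1, one_mem _, 1, one_mem _, by rw [g_zero]; simp⟩
    | mul_right x _ y hy ih =>
      rcases hy with rfl | ⟨c, hc, rfl⟩
      · exact hz _ ih
      · exact D_right ih hc
    | mul_inv_cancel x _ y hy ih =>
      rcases hy with rfl | ⟨c, hc, rfl⟩
      · rw [hzi, ← mul_assoc, ← mul_assoc]
        exact D_right (hz _ (D_right ih ha)) hb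
      · rw [← map_inv]; exact D_right ih (inv_mem hc)
  have h0 : X.S F 0 = ⊤ := by
    rw [eq_top_iff]
    exact fun c _ => ⟨c, c.2, by rw [g_zero]; simp⟩
  obtain ⟨h1, h2⟩ := ncard_D (X := X) (F := F) (l := (0, N * κ) :: l) (by
    rintro p hp
    rcases List.mem_cons.1 hp with rfl | hp
    · exact ⟨hc ▸ p1, by rw [h0, Subgroup.card_top, hc]⟩
    · obtain ⟨_, _, _, _, e⟩ := h.cov _ hp
      exact ⟨h.pos p hp, (cov_s hF e).2⟩)
  refine ⟨(h1.subset hs).to_subtype, (Set.ncard_le_ncard hs h1).trans (h2.trans_eq ?_)⟩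
  rw [hc, tot, List.map_cons, List.sum_cons, Nat.div_self (hc ▸ p1), tot]

/-- One level of the enumeration. -/
theorem level {L : Subgroup Γ} [Finite L] {π : Γ →* Mtˣ} {Φ : Γ →* G} {z : G} {A : Ax}
    {v N κ : ℕ} {l : List (ℕ × ℕ)} (h : Fin' A F t v N κ l) (hL : Nat.card L ≤ N * κ)
    (ar : ∀ c ∈ A.AR, ∃ b, Rep L π c b)
    (ak : ∀ c ∈ A.AK, ∃ a b, Rep L π c.1 a ∧ Rep L π c.2 b ∧ Φ a * z = z * Φ b)
    (rel : ∀ r ∈ A.R, ∃ ms, List.Forall₂ (Rep L π) r ms ∧ (ms.map fun m => z * Φ m).prod = 1)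
    {p q : ℕ} (hpq : [p, q] ∈ A.R) :
    (∀ g ∈ L, ∀ h ∈ L, π g = π h → g = h) ∧ Nat.card L = N * κ ∧
      Finite (Subgroup.closure (insert z (Φ '' L))) ∧
      Nat.card (Subgroup.closure (insert z (Φ '' L))) ≤ N * κ * (1 + tot (N * κ) l) := by
  let X₀ : Ctx Γ G := ⟨L, π, 1, 1, fun _ _ _ _ _ => rfl⟩
  have : Finite X₀.L := ‹Finite L›
  obtain ⟨h1, h2, -⟩ := h.count (X := X₀) ⟨ar,
    fun c hc => by
      obtain ⟨a, b, ha, hb, -⟩ := ak c hc
      exact ⟨a, b, ha, hb, rfl⟩,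
    fun r hr => by
      obtain ⟨ms, hms, -⟩ := rel r hr
      exact ⟨ms, hms, List.prod_eq_one (by simp [X₀])⟩⟩ hL
  let X : Ctx Γ G := ⟨L, π, Φ, z, fun g hg h hh e => congrArg Φ (h1 g hg h hh e)⟩
  have : Finite X.L := ‹Finite L›
  exact ⟨h1, h2, h.bound (X := X) ⟨ar, ak, rel⟩ hL hpq⟩

end Cfsg.Agent.TE
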