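import Cfsg.Agent.Lib.Th.Rel
import Cfsg.Agent.Lib.Th.L1D
import Cfsg.Agent.Lib.Th.L2D
import Cfsg.Agent.Lib.Th.L3D
import Cfsg.Agent.Lib.Th.L4D
import Cfsg.Agent.Lib.Th.L5D
import Cfsg.Agent.Lib.Th.TopF

/-!
The presented group is finite, with a bound for its order.
-/

set_option autoImplicit false
set_option maxRecDepth 100000

namespace Cfsg.Agent.TE

open Cfsg.Spor

/-- The chain of subgroups. -/
def L0 : Subgroup Gm := Subgroup.zpowers (γ 6)

/-- The subgroup generated by `a, b, c, d, e, s, t`, together with its matrix model. -/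
def LH : Subgroup Gm := nx 5 (nx 1 (nx 4 (nx 3 (nx 2 L0))))

theorem m6 : γ 6 ∈ L0 := Subgroup.mem_zpowers _

theorem card_L0 : Finite L0 ∧ Nat.card L0 ≤ 1 * 3 := by
  have h : γ 6 ^ 3 = 1 := by
    have := wd_eq (w := [6, 6, 6]) (w' := []) (by
      have := tx.2.2.2.2.2.2.1
      simpa [wT, th, pow_succ, mul_assoc] using this) (by decide +kernel)
    simpa [wd, pow_succ, mul_assoc] using this
  refine ⟨(isOfFinOrder_iff_pow_eq_one.2 ⟨3, by decide, h⟩).finite_zpowers, ?_⟩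
  rw [L0, Nat.card_zpowers]
  exact orderOf_le_of_pow_eq_one (by decide) h

theorem card_L1 : Finite (nx 2 L0) ∧ Nat.card (nx 2 L0) ≤ 2 * 3 := by
  have := card_L0.1
  exact low L1.fin card_L0.2 (W := wL1) (by decide +kernel) (fa m6 fn') (by decide +kernel) tx.1

theorem card_L2 : Finite (nx 3 (nx 2 L0)) ∧ Nat.card (nx 3 (nx 2 L0)) ≤ 4 * 12 := by
  have := card_L1.1
  exact low L2.fin card_L1.2 (W := wL2) (by decide +kernel) (fa (le_nx m6) (fa mem_nx fn'))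
    (by decide +kernel) tx.2.1

theorem card_L3 : Finite (nx 4 (nx 3 (nx 2 L0))) ∧
    Nat.card (nx 4 (nx 3 (nx 2 L0))) ≤ 288 * 1 := by
  have := card_L2.1
  exact low L3.fin card_L2.2 (W := wL3) (by decide +kernel)
    (fa (le_nx (le_nx m6)) (fa (le_nx mem_nx) (fa mem_nx fn'))) (by decide +kernel) tx.2.2.1

theorem card_L4 : Finite (nx 1 (nx 4 (nx 3 (nx 2 L0)))) ∧
    Nat.card (nx 1 (nx 4 (nx 3 (nx 2 L0)))) ≤ 216 * 168 := by
  have := card_L3.1
  exact low L4.fin card_L3.2 (W := wL4) (by decide +kernel)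
    (fa (le_nx (le_nx (le_nx m6))) (fa (le_nx (le_nx mem_nx)) (fa (le_nx mem_nx) (fa mem_nx fn'))))
    (by decide +kernel) tx.2.2.2.1

theorem card_L5 : Finite LH ∧ Nat.card LH ≤ 17199 * 36864 := by
  have := card_L4.1
  have h : γ 6 ∈ nx 1 (nx 4 (nx 3 (nx 2 L0))) := le_nx (le_nx (le_nx (le_nx m6)))
  have := low (z := 5) L5.fin card_L4.2 (W := wL5) (by decide +kernel)
    (fa h (fa (le_nx (le_nx (le_nx mem_nx))) (fa (le_nx (le_nx mem_nx)) (fa (le_nx mem_nx)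
      (fa mem_nx (fa (γ8 ▸ inv_mem h) fn')))))) (by decide +kernel) tx.2.2.2.2.1
  exact ⟨this.1, this.2.trans_eq (by decide +kernel)⟩

theorem γ_mem (k : Fin 9) : γ k ∈ LH := by
  have h2 : γ 2 ∈ LH := le_nx (le_nx (le_nx (le_nx mem_nx)))
  have h3 : γ 3 ∈ LH := le_nx (le_nx (le_nx mem_nx))
  have h5 : γ 5 ∈ LH := mem_nx
  have h6 : γ 6 ∈ LH := le_nx (le_nx (le_nx (le_nx (le_nx m6))))
  have h0 : γ 0 ∈ LH := by
    have := wd_eq (w := [0]) (w' := [2, 3, 2, 3, 2, 3, 2, 3]) (by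
      rw [← tx.2.2.2.2.2.2.2]; exact mul_one _) (by decide +kernel)
    simp only [wd, List.map_cons, List.map_nil, List.prod_cons, List.prod_nil, mul_one] at this
    rw [this]
    exact mul_mem h2 (mul_mem h3 (mul_mem h2 (mul_mem h3 (mul_mem h2 (mul_mem h3 (mul_mem h2 h3))))))
  have : ∀ k ∈ ([0, 1, 2, 3, 4, 5, 6, 7, 8] : List (Fin 9)), γ k ∈ LH :=
    fa h0 (fa (le_nx mem_nx) (fa h2 (fa h3 (fa (le_nx (le_nx mem_nx)) (fa h5 (fa h6
      (fa (γ7 ▸ inv_mem h5) (fa (γ8 ▸ inv_mem h6) fn'))))))))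
  exact this k (by revert k; decide)

theorem closure_top :
    Subgroup.closure (insert tu (MonoidHom.fst Spor.Th Mtˣ '' LH)) = ⊤ := by
  rw [eq_top_iff, ← PresentedGroup.closure_range_of]
  refine Subgroup.closure_mono ?_
  rintro _ ⟨g, rfl⟩
  cases g
  · exact .inr ⟨_, γ_mem 0, rfl⟩
  · exact .inr ⟨_, γ_mem 1, rfl⟩
  · exact .inr ⟨_, γ_mem 2, rfl⟩
  · exact .inr ⟨_, γ_mem 3, rfl⟩
  · exact .inr ⟨_, γ_mem 4, rfl⟩
  · exact .inr ⟨_, γ_mem 5, rfl⟩
  · exact .inr ⟨_, γ_mem 6, rfl⟩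
  · exact .inl rfl

theorem top : (∀ g ∈ LH, ∀ h ∈ LH, π₂ g = π₂ h → g = h) ∧ Nat.card LH = 634023936 ∧
    Finite Spor.Th ∧ Nat.card Spor.Th ≤ 634023936 * 147073761 := by
  have := card_L5.1
  obtain ⟨h1, h2, h3, h4⟩ := lev (Φ := MonoidHom.fst Spor.Th Mtˣ) (z := tu) Top.fin card_L5.2
    (W := wTop) (by decide +kernel) (fun k _ => γ_mem k)
    (fun p hp => by simpa only [MonoidHom.coe_fst, wd_fst] using tx.2.2.2.2.2.1.1 p hp)
    (fun r hr => by simpa only [MonoidHom.coe_fst, wd_fst] using tx.2.2.2.2.2.1.2 r hr)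
  rw [closure_top] at h3 h4
  rw [Subgroup.card_top] at h4
  exact ⟨h1, h2, Finite.of_equiv _ Subgroup.topEquiv.toEquiv, h4.trans_eq (by decide +kernel)⟩

instance finite_Th : Finite Spor.Th := top.2.2.1

theorem card_Th_le : Nat.card Spor.Th ≤ 634023936 * 147073761 := top.2.2.2

end Cfsg.Agent.TE
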