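import Cfsg.Agent.Lib.Th.Tab
import Cfsg.Prelude.Def_Spor_Th

/-!
The relations of the presentation, and words in the generators of the subgroup.
-/

set_option autoImplicit false
set_option maxRecDepth 100000

namespace Cfsg.Agent.TE

open Cfsg.Spor

/-- A generator. -/
def ta : Spor.Th := PresentedGroup.of Th.Gen.a
/-- A generator. -/
def tb : Spor.Th := PresentedGroup.of Th.Gen.b
/-- A generator. -/
def tc : Spor.Th := PresentedGroup.of Th.Gen.c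
/-- A generator. -/
def td : Spor.Th := PresentedGroup.of Th.Gen.d
/-- A generator. -/
def te : Spor.Th := PresentedGroup.of Th.Gen.e
/-- A generator. -/
def ts : Spor.Th := PresentedGroup.of Th.Gen.s
/-- A generator. -/
def tt : Spor.Th := PresentedGroup.of Th.Gen.t
/-- A generator. -/
def tu : Spor.Th := PresentedGroup.of Th.Gen.u

theorem rels : ta ^ 2 = 1 ∧
    tb ^ 2 = 1 ∧
    tc ^ 2 = 1 ∧
    td ^ 2 = 1 ∧
    te ^ 2 = 1 ∧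
    (ta * tb) ^ 3 = 1 ∧
    (ta * te) ^ 2 = 1 ∧
    (tb * tc) ^ 3 = 1 ∧
    (tb * td) ^ 2 = 1 ∧
    (tb * te) ^ 2 = 1 ∧
    ta * (((tc * td) ^ 4)⁻¹) = 1 ∧
    (tc * te) ^ 2 = 1 ∧
    (td * te) ^ 3 = 1 ∧
    (tb * tc * td * te) ^ 8 = 1 ∧
    ts ^ 7 = 1 ∧
    ts⁻¹ * ta⁻¹ * ts * ta = 1 ∧
    ts⁻¹ * tb⁻¹ * ts * tb = 1 ∧
    ts⁻¹ * tc⁻¹ * ts * tc = 1 ∧
    (ts * td) ^ 2 = 1 ∧
    (te⁻¹ * ts⁻¹ * te * ts) * (((ts ^ 3)⁻¹ * te * (ts ^ 3))⁻¹) = 1 ∧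
    tt ^ 3 = 1 ∧
    tt⁻¹ * ta⁻¹ * tt * ta = 1 ∧
    tt⁻¹ * tb⁻¹ * tt * tb = 1 ∧
    tt⁻¹ * tc⁻¹ * tt * tc = 1 ∧
    tt⁻¹ * td⁻¹ * tt * td = 1 ∧
    tt⁻¹ * te⁻¹ * tt * te = 1 ∧
    (tt⁻¹ * ts * tt) * ((ts ^ 2)⁻¹) = 1 ∧
    (tu ^ 2) * ((ta * tc)⁻¹) = 1 ∧
    tu⁻¹ * ta⁻¹ * tu * ta = 1 ∧
    tu⁻¹ * tc⁻¹ * tu * tc = 1 ∧
    tu⁻¹ * te⁻¹ * tu * te = 1 ∧
    (td * te * (tu⁻¹ * td * tu)) ^ 2 = 1 ∧
    (tu⁻¹ * (tb⁻¹ * (ta * tc) * tb)⁻¹ * tu * (tb⁻¹ * (ta * tc) * tb)) * (te⁻¹) = 1 ∧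
    ((td⁻¹ * tu * td)⁻¹ * (tb⁻¹ * (ta * tc) * tb)⁻¹ * (td⁻¹ * tu * td) * (tb⁻¹ * (ta * tc) * tb)) * ((tu * te * (tb⁻¹ * (ta * tc) * tb) * (td⁻¹ * tu * td) * te * tc)⁻¹) = 1 ∧
    (tu⁻¹ * tt * tu) * ((tt⁻¹)⁻¹) = 1 ∧
    te⁻¹ * ((ts ^ 2)⁻¹ * tu * (ts ^ 2))⁻¹ * te * ((ts ^ 2)⁻¹ * tu * (ts ^ 2)) = 1 ∧
    (ta * tc) * (((tu * ts) ^ 3)⁻¹) = 1 ∧
    (ta * tc) * (((tu⁻¹ * ts⁻¹ * tu * ts) ^ 4)⁻¹) = 1 ∧
    ((td * ((ts ^ 2)⁻¹ * tu * (ts ^ 2))) ^ 4) * ((ta * tc * (td⁻¹ * tc * td) * ((td * te * (ts⁻¹))⁻¹ * tc * (td * te * (ts⁻¹))) * ((td * te * (ts ^ 2))⁻¹ * tc * (td * te * (ts ^ 2))))⁻¹) = 1 := by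
  have h : ∀ r ∈ Th.extra, (PresentedGroup.mk _ r : Spor.Th) = 1 := fun r hr =>
    PresentedGroup.one_of_mem (.inr hr)
  simp only [Th.extra, List.forall_mem_cons, map_mul, map_pow, map_inv] at h
  exact ⟨h.1, h.2.1, h.2.2.1, h.2.2.2.1, h.2.2.2.2.1, h.2.2.2.2.2.1, h.2.2.2.2.2.2.1, h.2.2.2.2.2.2.2.1, h.2.2.2.2.2.2.2.2.1, h.2.2.2.2.2.2.2.2.2.1, h.2.2.2.2.2.2.2.2.2.2.1, h.2.2.2.2.2.2.2.2.2.2.2.1, h.2.2.2.2.2.2.2.2.2.2.2.2.1, h.2.2.2.2.2.2.2.2.2.2.2.2.2.1, h.2.2.2.2.2.2.2.2.2.2.2.2.2.2.1, h.2.2.2.2.2.2.2.2.2.2.2.2.2.2.2.1, h.2.2.2.2.2.2.2.2.2.2.2.2.2.2.2.2.1, h.2.2.2.2.2.2.2.2.2.2.2.2.2.2.2.2.2.1, h.2.2.2.2.2.2.2.2.2.2.2.2.2.2.2.2.2.2.1, h.2.2.2.2.2.2.2.2.2.2.2.2.2.2.2.2.2.2.2.1, h.2.2.2.2.2.2.2.2.2.2.2.2.2.2.2.2.2.2.2.2.1, h.2.2.2.2.2.2.2.2.2.2.2.2.2.2.2.2.2.2.2.2.2.1, h.2.2.2.2.2.2.2.2.2.2.2.2.2.2.2.2.2.2.2.2.2.2.1, h.2.2.2.2.2.2.2.2.2.2.2.2.2.2.2.2.2.2.2.2.2.2.2.1,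 h.2.2.2.2.2.2.2.2.2.2.2.2.2.2.2.2.2.2.2.2.2.2.2.2.1, h.2.2.2.2.2.2.2.2.2.2.2.2.2.2.2.2.2.2.2.2.2.2.2.2.2.1, h.2.2.2.2.2.2.2.2.2.2.2.2.2.2.2.2.2.2.2.2.2.2.2.2.2.2.1, h.2.2.2.2.2.2.2.2.2.2.2.2.2.2.2.2.2.2.2.2.2.2.2.2.2.2.2.1, h.2.2.2.2.2.2.2.2.2.2.2.2.2.2.2.2.2.2.2.2.2.2.2.2.2.2.2.2.1, h.2.2.2.2.2.2.2.2.2.2.2.2.2.2.2.2.2.2.2.2.2.2.2.2.2.2.2.2.2.1, h.2.2.2.2.2.2.2.2.2.2.2.2.2.2.2.2.2.2.2.2.2.2.2.2.2.2.2.2.2.2.1, h.2.2.2.2.2.2.2.2.2.2.2.2.2.2.2.2.2.2.2.2.2.2.2.2.2.2.2.2.2.2.2.1, h.2.2.2.2.2.2.2.2.2.2.2.2.2.2.2.2.2.2.2.2.2.2.2.2.2.2.2.2.2.2.2.2.1, h.2.2.2.2.2.2.2.2.2.2.2.2.2.2.2.2.2.2.2.2.2.2.2.2.2.2.2.2.2.2.2.2.2.1, h.2.2.2.2.2.2.2.2.2.2.2.2.2.2.2.2.2.2.2.2.2.2.2.2.2.2.2.2.2.2.2.2.2.2.1, h.2.2.2.2.2.2.2.2.2.2.2.2.2.2.2.2.2.2.2.2.2.2.2.2.2.2.2.2.2.2.2.2.2.2.2.1, h.2.2.2.2.2.2.2.2.2.2.2.2.2.2.2.2.2.2.2.2.2.2.2.2.2.2.2.2.2.2.2.2.2.2.2.2.1, h.2.2.2.2.2.2.2.2.2.2.2.2.2.2.2.2.2.2.2.2.2.2.2.2.2.2.2.2.2.2.2.2.2.2.2.2.2.1,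 h.2.2.2.2.2.2.2.2.2.2.2.2.2.2.2.2.2.2.2.2.2.2.2.2.2.2.2.2.2.2.2.2.2.2.2.2.2.2.1⟩

/-- The codes of the letters `a, b, c, d, e, s, t, s⁻¹, t⁻¹`. -/
def cg : Fin 9 → ℕ := ![
  0x800000400000200000104000082000041000024000012000009000004000002000001000000800000400000200000100000080000040000920000490000248000004000002000001,
  0x800000400000200000100000080000040000020000010000008000024000012000009000000800000400000200000120000090000048000020000010000008000004000002000001,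
  0x800000400000200000100000080000040000024000012000009000004000002000001000000800000400000200000100000080000040000120000090000048000004000002000001,
  0x4000002000001000820000410000208000020000010000008000900000480000240120000090000048000124000092000049000020000010000008000800000400000200000,
  0x800800400400200200900804480402240201020000010000008000004000002000001000000800000400000200004100002080001040020020010010008008000804000402000201,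
  0x200000600000c000000c0000100000140000018000020000028000003000004000005000000400000e000006000000800001c00000c0000010000038000018000007000006000004,
  0x400000200000800000080000040000100000010000008000020000002000001000004000000400000200000800000080000040000100000010000008000020000002000001000004,
  0xe00000c000008000000800001c00000c0000010000038000018000002000007000003000000600000800000a000000c0000100000140000018000020000028000001000003000006,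
  0x200000800000400000040000100000080000008000020000010000001000004000002000000200000800000400000040000100000080000008000020000010000001000004000002]

/-- The inverse letter. -/
def iv : Fin 9 → Fin 9 := ![0, 1, 2, 3, 4, 7, 8, 5, 6]

theorem cg_ok : ∀ k, mul (cg k) (cg (iv k)) = one ∧ mul (cg (iv k)) (cg k) = one ∧
    val (cg k) = true := by decide +kernel

/-- The matrices. -/
def mu (k : Fin 9) : Mtˣ := ⟨toM (cg k), toM (cg (iv k)),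
  by rw [← toM_mul, (cg_ok k).1, toM_one], by rw [← toM_mul, (cg_ok k).2.1, toM_one]⟩

/-- The elements. -/
def th : Fin 9 → Spor.Th := ![ta, tb, tc, td, te, ts, tt, ts⁻¹, tt⁻¹]

/-- The group in which the subgroup is analysed. -/
abbrev Gm : Type := Spor.Th × Mtˣ

def γ (k : Fin 9) : Gm := (th k, mu k)

abbrev Wd : Type := List (Fin 9)

def wT (w : Wd) : Spor.Th := (w.map th).prod

def wd (w : Wd) : Gm := (w.map γ).prod

noncomputable def ev (w : Wd) : ℕ := List.rec one (fun k _ x => mul (cg k) x) w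

abbrev π₂ : Gm →* Mtˣ := MonoidHom.snd _ _

theorem rep_ev {L : Subgroup Gm} {w : Wd} (h : ∀ k ∈ w, γ k ∈ L) : Rep L π₂ (ev w) (wd w) := by
  induction w with
  | nil => exact rep_one
  | cons k w ih =>
    exact Rep.mul ⟨h k List.mem_cons_self, val_iff.1 (cg_ok k).2.2, rfl⟩
      (ih fun j hj => h j (List.mem_cons_of_mem _ hj))

theorem wd_fst (w : Wd) : (wd w).1 = wT w := by
  induction w with
  | nil => rfl
  | cons k w ih => exact congrArg (th k * ·) ih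

theorem wd_eq {w w' : Wd} (h : wT w = wT w') (e : ev w = ev w') : wd w = wd w' := by
  refine Prod.ext (by rw [wd_fst, wd_fst, h]) (Units.ext ?_)
  have h1 := (rep_ev (L := ⊤) (w := w) fun _ _ => trivial).2.2
  have h2 := (rep_ev (L := ⊤) (w := w') fun _ _ => trivial).2.2
  exact h1.symm.trans (e ▸ h2)

theorem γ7 : γ 7 = (γ 5)⁻¹ := Prod.ext rfl (Units.ext rfl)

theorem γ8 : γ 8 = (γ 6)⁻¹ := Prod.ext rfl (Units.ext rfl)

/-- All rotations. -/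
def rots {α : Type} (r : List α) : List (List α) := (List.range r.length).map r.rotate

/-- The words that give the data of a level. -/
structure Wds where
  S : Wd
  ar : List Wd
  ak : List (Wd × Wd)
  rs : List (List Wd)

/-- The data come from the words. -/
def Wds.Ok (W : Wds) (A : Ax) : Prop :=
  A.AR = W.ar.map ev ∧ A.AK = W.ak.map (fun p => (ev p.1, ev p.2)) ∧
    A.R = (W.rs.flatMap rots).map (List.map ev) ∧ (∀ w ∈ W.ar, ∀ k ∈ w, k ∈ W.S) ∧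
    (∀ p ∈ W.ak, (∀ k ∈ p.1, k ∈ W.S) ∧ ∀ k ∈ p.2, k ∈ W.S) ∧
    (∀ r ∈ W.rs, ∀ w ∈ r, ∀ k ∈ w, k ∈ W.S) ∧ ∃ r ∈ A.R, r.length = 2

noncomputable instance (W : Wds) (A : Ax) : Decidable (W.Ok A) := by
  unfold Wds.Ok; infer_instance

theorem lev {G : Type} [Group G] {L : Subgroup Gm} [Finite L] {Φ : Gm →* G} {z : G} {A : Ax}
    {F : ℕ → ℕ} {t v N κ : ℕ} {l : List (ℕ × ℕ)} (h : Fin' A F t v N κ l)
    (hL : Nat.card L ≤ N * κ) {W : Wds} (hW : W.Ok A) (hS : ∀ k ∈ W.S, γ k ∈ L)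
    (hk : ∀ p ∈ W.ak, Φ (wd p.1) * z = z * Φ (wd p.2))
    (hr : ∀ r ∈ W.rs, (r.map fun w => z * Φ (wd w)).prod = 1) :
    (∀ g ∈ L, ∀ h ∈ L, π₂ g = π₂ h → g = h) ∧ Nat.card L = N * κ ∧
      Finite (Subgroup.closure (insert z (Φ '' L))) ∧
      Nat.card (Subgroup.closure (insert z (Φ '' L))) ≤ N * κ * (1 + tot (N * κ) l) := by
  obtain ⟨h1, h2, h3, h4, h5, h6, r, h7, h8⟩ := hW
  obtain ⟨p, q, rfl⟩ := List.length_eq_two.1 h8
  refine level h hL (fun c hc => ?_) (fun c hc => ?_) (fun c hc => ?_) h7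
  · obtain ⟨w, hw, rfl⟩ := List.mem_map.1 (h1 ▸ hc)
    exact ⟨_, rep_ev fun k hk => hS k (h4 w hw k hk)⟩
  · obtain ⟨w, hw, rfl⟩ := List.mem_map.1 (h2 ▸ hc)
    exact ⟨_, _, rep_ev fun k hk => hS k ((h5 w hw).1 k hk),
      rep_ev fun k hk => hS k ((h5 w hw).2 k hk), hk w hw⟩
  · obtain ⟨w, hw, rfl⟩ := List.mem_map.1 (h3 ▸ hc)
    obtain ⟨r, hr', hw⟩ := List.mem_flatMap.1 hw
    obtain ⟨n, -, rfl⟩ := List.mem_map.1 hw
    refine ⟨(r.rotate n).map wd, ?_, ?_⟩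
    · rw [List.forall₂_map_left_iff, List.forall₂_map_right_iff, List.forall₂_same]
      exact fun w hw => rep_ev fun k hk => hS k (h6 r hr' w (List.mem_rotate.1 hw) k hk)
    · rw [List.map_map, List.map_rotate]
      exact List.prod_rotate_eq_one_of_prod_eq_one (hr r hr') n

/-- The next subgroup of the chain. -/
def nx (z : Fin 9) (L : Subgroup Gm) : Subgroup Gm :=
  Subgroup.closure (insert (γ z) (MonoidHom.id Gm '' L))

theorem le_nx {z : Fin 9} {L : Subgroup Gm} : L ≤ nx z L := fun g hg =>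
  Subgroup.subset_closure (.inr ⟨g, hg, rfl⟩)

theorem mem_nx {z : Fin 9} {L : Subgroup Gm} : γ z ∈ nx z L := Subgroup.subset_closure (.inl rfl)

/-- The relations hold for the matrices. -/
def Wds.Mx (W : Wds) (z : Fin 9) : Prop := (∀ p ∈ W.ak, ev (p.1 ++ [z]) = ev (z :: p.2)) ∧
  ∀ r ∈ W.rs, ev (r.flatMap (z :: ·)) = ev []

noncomputable instance (W : Wds) (z : Fin 9) : Decidable (W.Mx z) := by
  unfold Wds.Mx; infer_instance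

/-- The relations hold in the presented group. -/
def Wds.Tx (W : Wds) (z : Spor.Th) : Prop := (∀ p ∈ W.ak, wT p.1 * z = z * wT p.2) ∧
  ∀ r ∈ W.rs, (r.map fun w => z * wT w).prod = 1

theorem wd_flat (z : Fin 9) (r : List Wd) :
    wd (r.flatMap (z :: ·)) = (r.map fun w => γ z * wd w).prod := by
  induction r with
  | nil => rfl
  | cons w r ih => rw [List.map_cons, List.prod_cons, ← ih]; simp [wd, mul_assoc]

theorem low {L : Subgroup Gm} [Finite L] {z : Fin 9} {A : Ax}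
    {F : ℕ → ℕ} {t v N κ : ℕ} {l : List (ℕ × ℕ)} (h : Fin' A F t v N κ l)
    (hL : Nat.card L ≤ N * κ) {W : Wds} (hW : W.Ok A) (hS : ∀ k ∈ W.S, γ k ∈ L)
    (hM : W.Mx z) (hT : W.Tx (th z)) :
    Finite (nx z L) ∧ Nat.card (nx z L) ≤ N * κ * (1 + tot (N * κ) l) := by
  refine (lev h hL hW hS (fun p hp => ?_) fun r hr => ?_).2.2
  · have := wd_eq (by simpa [wT] using hT.1 p hp) (hM.1 p hp)
    simpa [wd] using this
  · have e := congrArg Prod.fst (wd_flat z r)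
    have := wd_eq (w' := []) (by
      rw [← wd_fst, e, ← show (r.map fun w => th z * wT w).prod = wT [] from hT.2 r hr]
      change MonoidHom.fst _ _ _ = _
      rw [map_list_prod, List.map_map]
      exact congrArg List.prod (List.map_congr_left fun w _ => congrArg (th z * ·) (wd_fst w)))
      (hM.2 r hr)
    rw [wd_flat] at this
    exact this

def wL1 : Wds := ⟨[6], [[6]], [([6], [6])],
  [[[], []]]⟩

def wL2 : Wds := ⟨[6, 2], [[6], [2]], [([6], [6])],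
  [[[], []],
   [[2], [2], [2], [2], [2], [2], [2], [2]]]⟩

def wL3 : Wds := ⟨[6, 2, 3], [[6], [2], [3]], [([6], [6]), ([2], [2]), ([2, 3, 2, 3, 2, 3, 2, 3], [2, 3, 2, 3, 2, 3, 2, 3])],
  [[[], []],
   [[3], [3], [3]]]⟩

def wL4 : Wds := ⟨[6, 2, 3, 4], [[6], [2], [3], [4]], [([6], [6]), ([3], [3]), ([4], [4])],
  [[[], []],
   [[2, 3, 2, 3, 2, 3, 2, 3], [2, 3, 2, 3, 2, 3, 2, 3], [2, 3, 2, 3, 2, 3, 2, 3]],
   [[2], [2], [2]],
   [[2, 3, 4], [2, 3, 4], [2, 3, 4], [2, 3, 4], [2, 3, 4], [2, 3, 4], [2, 3, 4], [2, 3, 4]]]⟩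

def wL5 : Wds := ⟨[6, 2, 3, 4, 1, 8], [[6], [2], [3], [4], [1]], [([2, 3, 2, 3, 2, 3, 2, 3], [2, 3, 2, 3, 2, 3, 2, 3]), ([1], [1]), ([2], [2])],
  [[[3], [3]],
   [[], [], [], [], [], [], []],
   [[], [8, 3], [3, 6]],
   [[3, 4], [3], [], [], [3, 4], [], [], [4, 3]]]⟩

def wTop : Wds := ⟨[0, 1, 2, 3, 4, 5, 6, 7, 8], [[0], [1], [2], [3], [4], [5], [6]], [([0], [0]), ([2], [2]), ([4], [4]), ([6], [8]), ([1, 0, 2, 1], [4, 1, 0, 2, 1]), ([5, 5, 4, 7, 7], [5, 5, 4, 7, 7])],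
  [[[], [0, 2]],
   [[0, 2, 3], [3, 4], [0, 2, 3], [3, 4]],
   [[0, 2, 3, 1, 0, 2, 1, 3], [3, 1, 0, 2, 1, 2, 4, 3], [0, 2, 3, 1, 0, 2, 1, 4], [0, 2, 3]],
   [[5], [5], [5, 2, 0]],
   [[0, 2, 7], [5], [0, 2, 7], [5], [0, 2, 7], [5], [0, 2, 7], [5, 2, 0]],
   [[5, 5, 3, 7, 7], [5, 5, 3, 7, 7], [5, 5, 3, 7, 7], [5, 5, 7, 7, 4, 3, 2, 3, 4, 5, 5, 5, 4, 3, 2, 3, 4, 7, 3, 2, 3, 2, 0, 3, 7, 7]]]⟩

theorem cj {G : Type} [Group G] (g : G) {x y : G} (h : x = 1) (e : y = g * x * g⁻¹) : y = 1 := by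
  rw [e, h]; simp

theorem cj' {G : Type} [Group G] (g : G) {x y y' : G} (h : x = 1) (e : y * y'⁻¹ = g * x * g⁻¹) :
    y = y' := eq_of_mul_inv_eq_one (cj g h e)

theorem cji {G : Type} [Group G] (g : G) {x y y' : G} (h : x = 1)
    (e : y * y'⁻¹ = g * x⁻¹ * g⁻¹) : y = y' := cj' g (inv_eq_one.2 h) e

theorem fa {α : Type} {p : α → Prop} {a : α} {l : List α} (h : p a) (h' : ∀ x ∈ l, p x) :
    ∀ x ∈ a :: l, p x := List.forall_mem_cons.2 ⟨h, h'⟩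

theorem fn' {α : Type} {p : α → Prop} : ∀ x ∈ ([] : List α), p x := fun _ h => by cases h

theorem invol {G : Type} [Group G] {x : G} (h : x ^ 2 = 1) :
    x * x = 1 ∧ x⁻¹ = x ∧ ∀ y, x * (x * y) = y := by
  rw [pow_two] at h
  exact ⟨h, inv_eq_of_mul_eq_one_right h, fun y => by rw [← mul_assoc, h, one_mul]⟩

theorem tx : wL1.Tx tc ∧ wL2.Tx td ∧ wL3.Tx te ∧ wL4.Tx tb ∧ wL5.Tx ts ∧ wTop.Tx tu ∧
    tt ^ 3 = 1 ∧ ta = wT [2, 3, 2, 3, 2, 3, 2, 3] := by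
  obtain ⟨a2, b2, c2, d2, e2, ab, ae, bc, bd, be, acd, ce, de, bcde, s7, sa, sb, sc, sd, es,
    t3, t_a, t_b, t_c, t_d, t_e, st, u2, ua, uc, ue, r1, ux, r2, t_u, eu, r3, r4, r5⟩ := rels
  obtain ⟨a1, a3, a4⟩ := invol a2
  obtain ⟨b1, b3, b4⟩ := invol b2
  obtain ⟨c1, c3, c4⟩ := invol c2
  obtain ⟨d1, d3, d4⟩ := invol d2
  obtain ⟨e1, e3, e4⟩ := invol e2
  have ea : ta = (tc * td) ^ 4 := eq_of_mul_inv_eq_one acd
  have h8 : (tc * td) ^ 8 = 1 := by rw [show 8 = 4 + 4 from rfl, pow_add, ← ea, a1]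
  have ac : ta * tc = tc * ta := by
    have h1 : tc * ta * tc = (td * tc) ^ 4 := by
      rw [ea]; simp only [pow_succ, pow_zero, one_mul, mul_assoc, c4]
    have h2 : ta⁻¹ = (td * tc) ^ 4 := by
      rw [ea, ← inv_pow, mul_inv_rev, c3, d3]
    rw [← h2, a3] at h1
    rw [← h1, mul_assoc, c1, mul_one, h1]
  have iu : tu⁻¹ = tu * (ta * tc) := by
    rw [inv_eq_iff_mul_eq_one, ← mul_assoc, ← pow_two, eq_of_mul_inv_eq_one u2, ac, mul_assoc,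
      ← ac, a4, c1]
  have is : ts⁻¹ = td * ts * td := by
    rw [inv_eq_iff_mul_eq_one, ← sd]; simp only [pow_succ, pow_zero, one_mul, mul_assoc]
  have t0 : th 0 = ta ∧ th 1 = tb ∧ th 2 = tc ∧ th 3 = td ∧ th 4 = te ∧ th 5 = ts ∧ th 6 = tt ∧
    th 7 = ts⁻¹ ∧ th 8 = tt⁻¹ := ⟨rfl, rfl, rfl, rfl, rfl, rfl, rfl, rfl, rfl⟩
  have uu : tu * (tu * (ta * tc)) = 1 := by rw [← iu, mul_inv_cancel]
  have ca := ac.symm
  have cx : ∀ y, tc * (ta * y) = ta * (tc * y) := fun y => by rw [← mul_assoc, ca, mul_assoc]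
  have r4x : (tu⁻¹ * ts⁻¹ * tu * ts) ^ 4 * (ta * tc)⁻¹ = 1 := by
    rw [← eq_of_mul_inv_eq_one r4, mul_inv_cancel]
  have aec : ta * te * ta⁻¹ * te = 1 := by rw [a3, ← ae, pow_two, mul_assoc]
  rw [ea] at ab aec sa
  have st' := inv_eq_one.2 st
  simp only [pow_succ, pow_zero, one_mul, mul_one, mul_assoc, mul_inv_rev, inv_inv, a1, a3, a4, b1, b3,
    b4, c1, c3, c4, d1, d3, d4, e1, e3, e4, mul_inv_cancel_left, inv_mul_cancel_left,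
    mul_inv_cancel, inv_mul_cancel, inv_one, ca, cx, is] at st'
  have es' := es
  simp only [pow_succ, pow_zero, one_mul, mul_one, mul_assoc, mul_inv_rev, inv_inv, a1, a3, a4, b1, b3,
    b4, c1, c3, c4, d1, d3, d4, e1, e3, e4, mul_inv_cancel_left, inv_mul_cancel_left,
    mul_inv_cancel, inv_mul_cancel, inv_one, ca, cx, is] at es'
  have r1' := r1
  simp only [pow_succ, pow_zero, one_mul, mul_one, mul_assoc, mul_inv_rev, inv_inv, a1, a3, a4, b1, b3,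
    b4, c1, c3, c4, d1, d3, d4, e1, e3, e4, mul_inv_cancel_left, inv_mul_cancel_left,
    mul_inv_cancel, inv_mul_cancel, inv_one, ca, cx, iu] at r1'
  have r2' := r2
  simp only [pow_succ, pow_zero, one_mul, mul_one, mul_assoc, mul_inv_rev, inv_inv, a1, a3, a4, b1, b3,
    b4, c1, c3, c4, d1, d3, d4, e1, e3, e4, mul_inv_cancel_left, inv_mul_cancel_left,
    mul_inv_cancel, inv_mul_cancel, inv_one, ca, cx, iu] at r2'
  have r3' := inv_eq_one.2 r3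
  simp only [pow_succ, pow_zero, one_mul, mul_one, mul_assoc, mul_inv_rev, inv_inv, a1, a3, a4, b1, b3,
    b4, c1, c3, c4, d1, d3, d4, e1, e3, e4, mul_inv_cancel_left, inv_mul_cancel_left,
    mul_inv_cancel, inv_mul_cancel, inv_one, ca, cx] at r3'
  have r4x' := r4x
  simp only [pow_succ, pow_zero, one_mul, mul_one, mul_assoc, mul_inv_rev, inv_inv, a1, a3, a4, b1, b3,
    b4, c1, c3, c4, d1, d3, d4, e1, e3, e4, mul_inv_cancel_left, inv_mul_cancel_left,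
    mul_inv_cancel, inv_mul_cancel, inv_one, ca, cx, iu] at r4x'
  refine ⟨⟨(fa (cj' (tc * tt) t_c ?_) fn'),
      (fa ?_ fn')⟩,
    ⟨(fa (cj' (td * tt) t_d ?_) fn'),
      (fa ?_ (fa (cj (tc) h8 ?_) fn'))⟩,
    ⟨(fa (cj' (te * tt) t_e ?_) (fa (cj' 1 ce ?_) (fa (cj' 1 aec ?_) fn'))),
      (fa ?_ (fa (cj (td) de ?_) fn'))⟩,
    ⟨(fa (cj' (tb * tt) t_b ?_) (fa (cj' (tb) bd ?_) (fa (cj' (tb) be ?_) fn'))),
      (fa ?_ (fa (cj (td * tc * td * tc * td * tc * td * tc) ab ?_) (fa (cj 1 bc ?_) (fa (cj 1 bcde ?_) fn'))))⟩,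
    ⟨(fa (cji (ts * tc * td * tc * td * tc * td * tc * td) sa ?_) (fa (cj' (ts) sb ?_) (fa (cj' (ts) sc ?_) fn'))),
      (fa (cj 1 sd ?_) (fa (cj 1 s7 ?_) (fa (cj 1 st' ?_) (fa (cj (td * te) es' ?_) fn'))))⟩,
    ⟨(fa (cj' (tu) ua ?_) (fa (cj' (tu) uc ?_) (fa (cj' (tu) ue ?_) (fa (cj' (tu) t_u ?_) (fa (cj' (tu) ux ?_) (fa (cj' (tu * ts * ts * te) eu ?_) fn')))))),
      (fa (cj 1 uu ?_) (fa (cj (te * td) r1' ?_) (fa (cj (td) r2' ?_) (fa (cj 1 r3' ?_) (fa (cj 1 r4x' ?_) (fa (cj (ts * ts * td) r5 ?_) fn'))))))⟩, t3, ea.trans ?_⟩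
  all_goals simp only [wT, List.map_cons, List.map_nil, List.prod_cons, List.prod_nil, t0,
    pow_succ, pow_zero, one_mul, mul_one, mul_assoc, mul_inv_rev, inv_inv, a1, a3, a4, b1, b3,
    b4, c1, c3, c4, d1, d3, d4, e1, e3, e4, mul_inv_cancel_left, inv_mul_cancel_left,
    mul_inv_cancel, inv_mul_cancel, inv_one, ca, cx]

end Cfsg.Agent.TE
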