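import Cfsg.Agent.Lib.Th.DC2

/-!
Tables of facts.
-/

set_option autoImplicit false

namespace Cfsg.Agent.TE

/-- Binary trees of numbers. -/
inductive Tr
  | lf (x : ℕ)
  | nd (l r : Tr)

noncomputable def Tr.get (T : Tr) : ℕ → ℕ :=
  Tr.rec (fun x _ => x) (fun _ _ l r q => frc (Nat.shiftRight q 1) fun q' =>
    cnd (Nat.beq (Nat.land q 1) 0) (l q') (r q')) T

/-- The bound for long records. -/
def bW : ℕ := 2 ^ 1762

/-- The bound for short records. -/
def bN : ℕ := 2 ^ 1186

/-- A table of long records followed by short records, in groups of `32`. -/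
noncomputable def tab (T : Tr) (n f : ℕ) : ℕ :=
  cnd (Nat.blt f n)
    (Nat.mod (Nat.shiftRight (T.get (Nat.shiftRight f 5)) (Nat.mul 1762 (Nat.land f 31))) bW)
    (Nat.mod (Nat.shiftRight (T.get (Nat.shiftRight f 5)) (Nat.mul 1186 (Nat.land f 31))) bN)

theorem Pass.add' {A : Ax} {F : ℕ → ℕ} {l : List ℕ} {t t' : ℕ} (hp : Pass A F t)
    (h : chkL A F l t = true) (e : Nat.beq (t + l.length) t' = true) : Pass A F t' :=
  beq_eq e ▸ hp.add h

end Cfsg.Agent.TE
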